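import Mathlib

/-! Fixed points of pronormal subgroups of transitive groups (Praeger): basic reductions. -/

set_option autoImplicit false

namespace CfsgLib.Prae

open MulAction Set Pointwise

universe u

variable {G : Type u} [Group G]

/-- `K` is pronormal in `H`. -/
def PrIn (K H : Subgroup G) : Prop := ∀ g ∈ H, ∃ w : G,
  (∀ L : Subgroup G, K ≤ L → (∀ k ∈ K, g * k * g⁻¹ ∈ L) → w ∈ L) ∧
    ∀ x, w⁻¹ * x * w ∈ K ↔ g⁻¹ * x * g ∈ K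

/-- The fixed points of `K`. -/
def Fx (K : Subgroup G) (Ω : Type u) [MulAction G Ω] : Set Ω := {x | ∀ k ∈ K, k • x = x}

/-- The `H`-orbit of `x`. -/
def Or {Ω : Type u} [MulAction G Ω] (H : Subgroup G) (x : Ω) : Set Ω := {y | ∃ h ∈ H, h • x = y}

/-- The stabiliser of `x` in `H`. -/
def St {Ω : Type u} [MulAction G Ω] (H : Subgroup G) (x : Ω) : Subgroup G where
  carrier := {h | h ∈ H ∧ h • x = x}
  mul_mem' := fun ha hb => ⟨H.mul_mem ha.1 hb.1, by rw [mul_smul, hb.2, ha.2]⟩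
  one_mem' := ⟨H.one_mem, one_smul _ _⟩
  inv_mem' := fun ha => ⟨H.inv_mem ha.1, by rw [inv_smul_eq_iff, ha.2]⟩

/-- `H` is doubly transitive on `O`. -/
def Two {Ω : Type u} [MulAction G Ω] (H : Subgroup G) (O : Set Ω) : Prop :=
  ∀ x ∈ O, ∀ y ∈ O, ∀ x' ∈ O, ∀ y' ∈ O, x ≠ y → x' ≠ y' → ∃ h ∈ H, h • x = x' ∧ h • y = y'

/-- The conclusion of the induction. -/
def Good {Ω : Type u} [MulAction G Ω] (K H : Subgroup G) (O : Set Ω) : Prop :=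
  2 * (O ∩ Fx K Ω).ncard < O.ncard ∧ (2 * (O ∩ Fx K Ω).ncard + 1 = O.ncard → Two H O)

/-- The induction hypothesis. -/
def Ih (K : Subgroup G) (n : ℕ) : Prop :=
  ∀ (Ω : Type u) [Finite Ω] [MulAction G Ω] (H : Subgroup G) (x : Ω), K ≤ H → (Or H x).ncard < n →
    ¬ Or H x ⊆ Fx K Ω → Good K H (Or H x)

variable {Ω : Type u} [MulAction G Ω] {K H : Subgroup G} {n : ℕ}

theorem le_St (hK : K ≤ H) {x : Ω} (hx : x ∈ Fx K Ω) : K ≤ St H x := fun k hk => ⟨hK hk, hx k hk⟩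

theorem self_mem_Or (x : Ω) : x ∈ Or H x := ⟨1, one_mem _, one_smul _ _⟩

theorem smul_mem_Or {x y : Ω} {h : G} (hh : h ∈ H) (hy : y ∈ Or H x) : h • y ∈ Or H x := by
  obtain ⟨g, hg, rfl⟩ := hy
  exact ⟨h * g, mul_mem hh hg, mul_smul _ _ _⟩

theorem Or_tr {x y z : Ω} (hy : y ∈ Or H x) (hz : z ∈ Or H x) : z ∈ Or H y := by
  obtain ⟨g, hg, rfl⟩ := hy
  obtain ⟨h, hh, rfl⟩ := hz
  exact ⟨h * g⁻¹, mul_mem hh (inv_mem hg), by rw [mul_smul, inv_smul_smul]⟩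

theorem Or_sub {x : Ω} {Y : Set Ω} (hY : ∀ h ∈ H, ∀ y ∈ Y, h • y ∈ Y) (hx : x ∈ Y) : Or H x ⊆ Y := by
  rintro _ ⟨h, hh, rfl⟩
  exact hY h hh x hx

theorem Or_eq {x y : Ω} (hy : y ∈ Or H x) : Or H y = Or H x :=
  (Or_sub (fun _ hh _ hz => smul_mem_Or hh hz) hy).antisymm fun _ hz => Or_tr hy hz

theorem PrIn.ex (pr : PrIn K ⊤) (Ω : Type u) [MulAction G Ω] (g : G) : ∃ w : G,
    (∀ L : Subgroup G, K ≤ L → (∀ k ∈ K, g * k * g⁻¹ ∈ L) → w ∈ L) ∧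
      ∀ x : Ω, w⁻¹ • x ∈ Fx K Ω ↔ g⁻¹ • x ∈ Fx K Ω := by
  obtain ⟨w, h1, h2⟩ := pr g trivial
  have key : ∀ (a b : G) (x : Ω), (∀ y, b⁻¹ * y * b ∈ K → a⁻¹ * y * a ∈ K) → a⁻¹ • x ∈ Fx K Ω →
      b⁻¹ • x ∈ Fx K Ω := fun a b x h3 h4 k hk => by
    have := h4 _ (h3 (b * k * b⁻¹) (by simpa [mul_assoc] using hk))
    rw [← mul_smul, mul_inv_cancel_right, mul_smul, smul_left_cancel_iff] at this
    rw [← smul_left_cancel_iff b, smul_inv_smul, ← mul_smul, ← mul_smul, this]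
  exact ⟨w, h1, fun x => ⟨key w g x fun y => (h2 y).2, key g w x fun y => (h2 y).1⟩⟩

theorem PrIn.w1 (pr : PrIn K ⊤) (Ω : Type u) [MulAction G Ω] (hK : K ≤ H) {h : G} (hh : h ∈ H) :
    ∃ v ∈ H, (∀ x : Ω, v • x ∈ Fx K Ω ↔ x ∈ Fx K Ω) ∧
      ∀ x ∈ Fx K Ω, h • x ∈ Fx K Ω → v • x = h • x := by
  obtain ⟨w, h1, h2⟩ := pr.ex Ω h
  refine ⟨w⁻¹ * h, mul_mem (inv_mem (h1 H hK fun k hk => mul_mem (mul_mem hh (hK hk)) (inv_mem hh))) hh,
    fun x => by rw [mul_smul, h2, inv_smul_smul], fun x hx h3 => ?_⟩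
  have : w • h • x = h • x := h1 (stabilizer G (h • x)) (fun k hk => h3 k hk) fun k hk => by
    rw [mem_stabilizer_iff, mul_smul, inv_smul_smul, mul_smul, hx k hk]
  rw [mul_smul, inv_smul_eq_iff, this]

theorem PrIn.w2 (pr : PrIn K ⊤) {O : Set Ω} (hO : ∀ k ∈ K, ∀ x ∈ O, k • x ∈ O) (g : G)
    (h : ∀ x ∈ O, g⁻¹ • x ∈ Fx K Ω) : O ⊆ Fx K Ω := fun x hx => by
  obtain ⟨w, h1, h2⟩ := pr.ex Ω g
  have h3 : ∀ k ∈ K, ∀ y ∈ O, (g * k * g⁻¹) • y = y := fun k hk y hy => by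
    rw [mul_smul, mul_smul, h y hy k hk, smul_inv_smul]
  have h4 := h1 (stabilizer G O) (fun k hk => mem_stabilizer_set.2 fun y =>
    ⟨fun e => by simpa using hO _ (inv_mem hk) _ e, hO k hk y⟩) fun k hk => mem_stabilizer_set.2 fun y =>
      ⟨fun e => by
        have := h3 _ (inv_mem hk) _ e
        rw [← mul_smul] at this
        rwa [← this, show g * k⁻¹ * g⁻¹ * (g * k * g⁻¹) = 1 by group, one_smul] at e,
      fun e => by rwa [h3 k hk y e]⟩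
  simpa using (h2 _).2 (h _ ((mem_stabilizer_set.1 h4 x).2 hx))

theorem dc_le {α β : Type*} [Finite α] [Finite β] {s : Set α} {t : Set β} (r : α → β → Prop) {a b : ℕ}
    (h1 : ∀ x ∈ s, a ≤ {y ∈ t | r x y}.ncard) (h2 : ∀ y ∈ t, {x ∈ s | r x y}.ncard ≤ b) :
    s.ncard * a ≤ t.ncard * b := by
  classical
  rw [ncard_eq_toFinset_card s, ncard_eq_toFinset_card t]
  refine Finset.card_mul_le_card_mul r (fun x hx => ?_) fun y hy => ?_
  · refine (h1 x (by simpa using hx)).trans_eq ?_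
    rw [← ncard_coe_finset]; congr 1; ext; simp
  · refine le_of_eq_of_le ?_ (h2 y (by simpa using hy))
    rw [← ncard_coe_finset]; congr 1; ext; simp

theorem ncard_le_smul [Finite Ω] (g : G) {s t : Set Ω} (h : ∀ x ∈ s, g • x ∈ t) : s.ncard ≤ t.ncard :=
  ncard_le_ncard_of_injOn (g • ·) h fun _ _ _ _ e => (smul_left_cancel_iff g).1 e

theorem split [Finite Ω] {Y O : Set Ω} (h : O ⊆ Y) (F : Set Ω) :
    Y.ncard = O.ncard + (Y \ O).ncard ∧ (Y ∩ F).ncard = (O ∩ F).ncard + ((Y \ O) ∩ F).ncard := by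
  have h1 := ncard_sdiff_add_ncard_of_subset h
  have h2 := ncard_sdiff_add_ncard_of_subset (inter_subset_inter_left F h)
  rw [show (Y ∩ F) \ (O ∩ F) = (Y \ O) ∩ F by ext; simp; tauto] at h2
  omega

theorem diff_inv {Y : Set Ω} (hY : ∀ h ∈ H, ∀ y ∈ Y, h • y ∈ Y) (x : Ω) :
    ∀ h ∈ H, ∀ y ∈ Y \ Or H x, h • y ∈ Y \ Or H x := fun h hh y hy =>
  ⟨hY h hh y hy.1, fun e => hy.2 (by simpa using smul_mem_Or (inv_mem hh) e)⟩

theorem Ih.sum [Finite Ω] (ih : Ih K n) (hK : K ≤ H) {Y : Set Ω} (hY : ∀ h ∈ H, ∀ y ∈ Y, h • y ∈ Y)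
    (hn : Y.ncard < n) (h : ∀ y ∈ Y, ¬ Or H y ⊆ Fx K Ω) (hne : Y.Nonempty) :
    2 * (Y ∩ Fx K Ω).ncard < Y.ncard := by
  induction hk : Y.ncard using Nat.strong_induction_on generalizing Y with
  | _ k IH =>
  obtain ⟨y, hy⟩ := hne
  have h1 := Or_sub hY hy
  obtain ⟨h2, h3⟩ := split h1 (Fx K Ω)
  have h4 := (ih Ω H y hK (by omega) (h y hy)).1
  rcases (Y \ Or H y).eq_empty_or_nonempty with e | e
  · rw [e] at h2 h3
    simp only [ncard_empty, empty_inter] at h2 h3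
    omega
  · have := IH _ (by omega) (diff_inv hY y) (by omega) (fun z hz => h z hz.1) e rfl
    omega

theorem Ih.red [Finite G] [Finite Ω] (ih : Ih K n) (pr : PrIn K ⊤) (hK : K ≤ H) {a : Ω} (ha : a ∈ Fx K Ω)
    (hn : (Or H a).ncard ≤ n) (hF : ¬ Or H a ⊆ Fx K Ω) :
    (∀ y ∈ Or H a \ {a}, ¬ Or (St H a) y ⊆ Fx K Ω) ∨
      (2 ≤ {y ∈ Or H a | Or (St H a) y ⊆ Fx K Ω}.ncard ∧ 2 * (Or H a ∩ Fx K Ω).ncard +
        {y ∈ Or H a | Or (St H a) y ⊆ Fx K Ω}.ncard ≤ (Or H a).ncard) := by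
  rw [or_iff_not_imp_left]
  intro h0
  push Not at h0
  obtain ⟨y0, hy0, hy1⟩ := h0
  set B := {y ∈ Or H a | Or (St H a) y ⊆ Fx K Ω} with hB
  have b2 : 2 ≤ B.ncard := (one_lt_ncard (toFinite _)).2 ⟨y0, ⟨hy0.1, hy1⟩, a, ⟨self_mem_Or a, by
    rintro _ ⟨h, hh, rfl⟩
    rwa [hh.2]⟩, hy0.2⟩
  let β : Ω → Set G := fun x => {g | g ∈ H ∧ g⁻¹ • x ∈ Fx K Ω}
  have e1 : ∀ h ∈ H, ∀ x, β (h • x) = h • β x := fun h hh x => by
    ext g
    rw [mem_smul_set_iff_inv_smul_mem]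
    simp only [β, mem_ofPred_eq, smul_eq_mul, mul_inv_rev, inv_inv, mul_smul, mul_mem_cancel_left (inv_mem hh)]
  have e2 : ∀ y ∈ Or H a, β y = β a ↔ y ∈ B := fun y hy => by
    refine ⟨fun e => ⟨hy, ?_⟩, fun e => ?_⟩
    · rintro _ ⟨h, hh, rfl⟩
      have : h⁻¹ ∈ β y := e ▸ ⟨inv_mem hh.1, by rwa [inv_inv, hh.2]⟩
      simpa using this.2
    · have h3 : β a ⊆ β y := fun g hg => ⟨hg.1, by
        obtain ⟨v, hv, h1, h2⟩ := pr.w1 Ω hK (inv_mem hg.1)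
        have := e.2 ⟨(g * v)⁻¹, (St H a).inv_mem ⟨mul_mem hg.1 hv, by
          rw [mul_smul, h2 a ha hg.2, smul_inv_smul]⟩, rfl⟩
        rwa [← h1, mul_inv_rev, mul_smul, smul_inv_smul] at this⟩
      obtain ⟨h, hh, rfl⟩ := hy
      exact (eq_of_subset_of_ncard_le h3 (by rw [e1 h hh, ncard_smul_set])).symm
  have e3 : ∀ Y ∈ Or H (β a), {x ∈ Or H a | β x = Y}.ncard = B.ncard := by
    rintro _ ⟨h, hh, rfl⟩
    refine le_antisymm (ncard_le_smul h⁻¹ fun x hx => (e2 _ (smul_mem_Or (inv_mem hh) hx.1)).1 ?_)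
      (ncard_le_smul h fun x hx => ⟨smul_mem_Or hh hx.1, by rw [e1 h hh, (e2 x hx.1).2 hx]⟩)
    rw [e1 _ (inv_mem hh), hx.2, inv_smul_smul]
  have e4 : ∀ x ∈ Or H a, β x ∈ Or H (β a) := by
    rintro _ ⟨h, hh, rfl⟩
    exact ⟨h, hh, (e1 h hh a).symm⟩
  have c1 := dc_le (s := Or H (β a)) (t := Or H a) (fun Y x => β x = Y) (fun Y hY => (e3 Y hY).ge)
    (b := 1) fun x _ => (ncard_le_one_iff_subsingleton).2 fun _ h1 _ h2 => h1.2.symm.trans h2.2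
  have c2 := dc_le (s := Or H a ∩ Fx K Ω) (t := Or H (β a) ∩ Fx K (Set G)) (fun x Y => β x = Y) (a := 1)
    (fun x hx => (ncard_pos (toFinite _)).2 ⟨β x, ⟨e4 x hx.1, fun k hk => by rw [← e1 k (hK hk), hx.2 k hk]⟩, rfl⟩)
    (b := B.ncard) fun Y hY => (e3 Y hY.1) ▸ ncard_le_ncard (t := {x ∈ Or H a | β x = Y}) (fun x hx => ⟨hx.1.1, hx.2⟩)
  have c0 : 0 < (Or H (β a)).ncard := (ncard_pos (toFinite _)).2 ⟨_, self_mem_Or _⟩
  have c3 := (ih (Set G) H (β a) hK (by nlinarith) fun h1 => hF ?_).1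
  · exact ⟨b2, by nlinarith⟩
  rintro _ ⟨h, hh, rfl⟩
  refine pr.w2 (O := {x ∈ Or H a | h⁻¹ • x ∈ Fx K Ω}) (fun k hk x hx => ⟨smul_mem_Or (hK hk) hx.1, ?_⟩) h
    (fun x hx => hx.2) ⟨⟨h, hh, rfl⟩, by rwa [inv_smul_smul]⟩
  have : h ∈ β (k • x) := by rw [e1 k (hK hk), h1 (e4 x hx.1) k hk]; exact ⟨hh, hx.2⟩
  exact this.2

/-- A monochromatic triangle in a doubly transitive suborbit. -/
theorem tri [Finite Ω] {c y : Ω} (hy : y ∈ Or H c) (h2 : Two (St H c) (Or (St H c) y))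
    (h3 : 3 ≤ (Or (St H c) y).ncard) : ∃ z ∈ Or H c \ {c},
      (∃ z' ∈ Or (St H c) z, z ≠ z' ∧ ∃ h ∈ H, h • c = z ∧ h • z = z') ∧
      (∃ h ∈ H, h • c = z ∧ h • z = c) ∧ ∀ x ∈ Or (St H c) y, ∀ x' ∈ Or (St H c) y,
        x ≠ x' → ∃ h ∈ H, h • c = x ∧ h • z = x' := by
  obtain ⟨y1, y2, y3, m1, m2, m3, n12, n13, n23⟩ := (two_lt_ncard_iff (toFinite _)).1 h3
  have sub : Or (St H c) y ⊆ Or H c := Or_sub (fun h hh _ e => smul_mem_Or hh.1 e) hy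
  obtain ⟨h, hh, e⟩ := Or_tr (sub m1) (self_mem_Or c)
  have key : ∀ x ∈ Or (St H c) y, ∀ x' ∈ Or (St H c) y, x ≠ x' →
      ∃ g ∈ H, g • c = x ∧ g • h • y2 = x' := fun x hx x' hx' hn => by
    obtain ⟨g, hg, e1, e2⟩ := h2 _ m1 _ m2 _ hx _ hx' n12 hn
    exact ⟨g * h⁻¹, mul_mem hg.1 (inv_mem hh), by rw [← e, mul_smul, inv_smul_smul, e1],
      by rw [mul_smul, inv_smul_smul, e2]⟩
  refine ⟨h • y2, ⟨smul_mem_Or hh (sub m2), fun e1 => n12 ((smul_left_cancel_iff h).1 (e.trans (Eq.symm e1)))⟩,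
    ⟨h • y3, ?_, fun e1 => n23 ((smul_left_cancel_iff h).1 e1), ?_⟩, ?_, key⟩
  · obtain ⟨g, hg, e1, e2⟩ := key _ m1 _ m3 n13
    exact ⟨h * g, ⟨mul_mem hh hg, by rw [mul_smul, e1, e]⟩, by rw [mul_smul, e2]⟩
  · obtain ⟨g, hg, e1, e2⟩ := key _ m2 _ m3 n23
    exact ⟨h * g, mul_mem hh hg, by rw [mul_smul, e1], by rw [mul_smul, e2]⟩
  · obtain ⟨g, hg, e1, e2⟩ := key _ m2 _ m1 n12.symm
    exact ⟨h * g, mul_mem hh hg, by rw [mul_smul, e1], by rw [mul_smul, e2, e]⟩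

theorem three_le [Finite Ω] {O : Set Ω} (hO : ∀ k ∈ K, ∀ x ∈ O, k • x ∈ O) (hF : ¬ O ⊆ Fx K Ω)
    (h : 2 * (O ∩ Fx K Ω).ncard + 1 = O.ncard) : 3 ≤ O.ncard := by
  obtain ⟨x, hx, h1⟩ := not_subset.1 hF
  obtain ⟨k, hk, h2⟩ : ∃ k ∈ K, k • x ≠ x := by simpa [Fx] using h1
  have h3 := (one_lt_ncard (toFinite (O \ (O ∩ Fx K Ω)))).2 ⟨k • x, ⟨hO k hk x hx, fun e => h2 (by
    have := e.2 _ (inv_mem hk)
    rwa [inv_smul_smul, eq_comm] at this)⟩, x, ⟨hx, fun e => h1 e.2⟩, h2⟩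
  have := (split (inter_subset_left : O ∩ Fx K Ω ⊆ O) univ).1
  omega

/-- A suborbit containing a triangle of its own colour has not defect one. -/
theorem Ih.clique [Finite Ω] (ih : Ih K n) (hK : K ≤ H) {c z z' : Ω} (hc : c ∈ Fx K Ω)
    (hn : (Or H c).ncard ≤ n) (hz : z ∈ Or H c \ {c}) (hz' : z' ∈ Or (St H c) z) (ne : z ≠ z')
    (t1 : ∃ h ∈ H, h • c = z ∧ h • z = z') (t2 : ∃ h ∈ H, h • c = z ∧ h • z = c)
    (hF : ¬ Or (St H c) z ⊆ Fx K Ω)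
    (h : 2 * (Or (St H c) z ∩ Fx K Ω).ncard + 1 = (Or (St H c) z).ncard) :
    Or H c \ {c} ⊆ Or (St H c) z := by
  set O := Or (St H c) z with hO
  have sub : O ⊆ Or H c \ {c} := Or_sub (fun h hh x e => ⟨smul_mem_Or hh.1 e.1, fun e1 => e.2 <| by
    rw [mem_singleton_iff, ← smul_left_cancel_iff h, hh.2]; exact e1⟩) hz
  have hc1 : c ∉ O := fun e => (sub e).2 rfl
  have s1 := ncard_sdiff_singleton_add_one (self_mem_Or (H := H) c)
  have s2 := ncard_le_ncard sub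
  have h2 := (ih Ω _ z (le_St hK hc) (by rw [← hO]; omega) hF).2 h
  have key : ∀ x ∈ O, ∃ g ∈ St H (insert c O), g • c = x := by
    rintro _ ⟨g, hg, rfl⟩
    obtain ⟨t, ht, e1, e2⟩ := t1
    refine ⟨g * t, ⟨mul_mem hg.1 ht, ?_⟩, by rw [mul_smul, e1]⟩
    refine (eq_of_subset_of_ncard_le (fun x hx => ?_) (by rw [ncard_smul_set])).symm
    rw [mem_smul_set_iff_inv_smul_mem, mul_inv_rev, mul_smul]
    have h3 : g⁻¹ • x ∈ insert c O := hx.elim (fun e => Or.inl (by rw [e, inv_smul_eq_iff, hg.2]))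
      fun e => Or.inr (smul_mem_Or (inv_mem hg) e)
    generalize g⁻¹ • x = y at h3
    by_cases h4 : y = z
    · exact Or.inl (by rw [h4, inv_smul_eq_iff, e1])
    have h5 : ∀ s ∈ H, s • c = z → s • z = y → t⁻¹ • y ∈ insert c O := fun s hs e3 e4 =>
      Or.inr ⟨t⁻¹ * s, ⟨mul_mem (inv_mem ht) hs, by rw [mul_smul, e3, inv_smul_eq_iff, e1]⟩,
        by rw [mul_smul, e4]⟩
    rcases h3 with rfl | h3
    · obtain ⟨s, hs, e3, e4⟩ := t2
      exact h5 s hs e3 e4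
    · obtain ⟨s, hs, e3, e4⟩ := h2 z (self_mem_Or z) z' hz' z (self_mem_Or z) y h3 ne (Ne.symm h4)
      exact h5 (s * t) (mul_mem hs.1 ht) (by rw [mul_smul, e1, e3]) (by rw [mul_smul, e2, e4])
  have e1 : Or (St H (insert c O)) c = insert c O :=
    (Or_sub (H := St H (insert c O)) (fun h hh x hx => (mem_stabilizer_set.1 hh.2 x).2 hx) (mem_insert _ _)).antisymm
      fun x hx => hx.elim (fun e => by rw [e]; exact self_mem_Or c) (key x)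
  by_contra h3
  have s3 := ncard_lt_ncard (⟨sub, h3⟩ : O ⊂ _)
  have s4 := ncard_insert_of_notMem hc1
  have s5 := ncard_insert_of_notMem (s := O ∩ Fx K Ω) fun e => hc1 e.1
  have := (ih Ω (St H (insert c O)) c (le_St hK fun k hk => mem_stabilizer_set.2 fun x => ?_)
    (by rw [e1]; omega) (by rw [e1]; exact fun e => hF ((subset_insert _ _).trans e))).1
  · rw [e1, insert_inter_of_mem hc] at this
    omega
  have h5 : ∀ k ∈ K, ∀ x ∈ insert c O, k • x ∈ insert c O := fun k hk x hx =>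
    hx.elim (fun e => Or.inl (by rw [e, hc k hk])) fun e => Or.inr (smul_mem_Or ⟨hK hk, hc k hk⟩ e)
  exact ⟨fun e => by simpa using h5 _ (inv_mem hk) _ e, h5 k hk x⟩

theorem sd_inv (c : Ω) : ∀ h ∈ St H c, ∀ y ∈ Or H c \ {c}, h • y ∈ Or H c \ {c} :=
  fun h hh x e => ⟨smul_mem_Or hh.1 e.1, fun e1 => e.2 <| by
    rw [mem_singleton_iff, ← smul_left_cancel_iff h, hh.2]; exact e1⟩

theorem sd_card [Finite Ω] {c : Ω} (hc : c ∈ Fx K Ω) : ((Or H c \ {c}).ncard + 1 = (Or H c).ncard) ∧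
    ((Or H c \ {c}) ∩ Fx K Ω).ncard + 1 = (Or H c ∩ Fx K Ω).ncard := by
  refine ⟨ncard_sdiff_singleton_add_one (self_mem_Or c), ?_⟩
  rw [← ncard_sdiff_singleton_add_one (s := Or H c ∩ Fx K Ω) ⟨self_mem_Or c, hc⟩]
  congr 2; ext; simp; tauto

/-- Splitting off one orbit from an invariant set. -/
theorem Ih.off [Finite Ω] (ih : Ih K n) (hK : K ≤ H) {Y : Set Ω} (hY : ∀ h ∈ H, ∀ y ∈ Y, h • y ∈ Y)
    (hn : Y.ncard < n) (h : ∀ y ∈ Y, ¬ Or H y ⊆ Fx K Ω) {y : Ω} (hy : y ∈ Y) (h1 : ¬ Y ⊆ Or H y) :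
    2 * (Or H y ∩ Fx K Ω).ncard < (Or H y).ncard ∧ 2 * ((Y \ Or H y) ∩ Fx K Ω).ncard < (Y \ Or H y).ncard ∧
      Y.ncard = (Or H y).ncard + (Y \ Or H y).ncard ∧
      (Y ∩ Fx K Ω).ncard = (Or H y ∩ Fx K Ω).ncard + ((Y \ Or H y) ∩ Fx K Ω).ncard := by
  obtain ⟨h2, h3⟩ := split (Or_sub hY hy) (Fx K Ω)
  exact ⟨(ih Ω H y hK (by omega) (h y hy)).1, ih.sum hK (diff_inv hY y) (by omega) (fun z hz => h z hz.1)
    (nonempty_of_not_subset h1), h2, h3⟩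

/-- Defect at most one forces double transitivity. -/
theorem Ih.two [Finite G] [Finite Ω] (ih : Ih K n) (pr : PrIn K ⊤) (hK : K ≤ H) {a : Ω} (ha : a ∈ Fx K Ω)
    (hn : (Or H a).ncard ≤ n) (hF : ¬ Or H a ⊆ Fx K Ω) (hd : (Or H a).ncard ≤ 2 * (Or H a ∩ Fx K Ω).ncard + 1) :
    ∀ y ∈ Or H a \ {a}, Or (St H a) y = Or H a \ {a} := by
  rcases ih.red pr hK ha hn hF with h | h
  swap
  · omega
  obtain ⟨s1, s2⟩ := sd_card (H := H) ha
  have key : ∀ y ∈ Or H a \ {a}, ¬ Or H a \ {a} ⊆ Or (St H a) y →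
      2 * (Or (St H a) y ∩ Fx K Ω).ncard + 1 = (Or (St H a) y).ncard := fun y hy h1 => by
    have := ih.off (le_St hK ha) (sd_inv a) (by omega) h hy h1
    omega
  intro y hy
  refine (Or_sub (sd_inv a) hy).antisymm (by_contra fun h1 => ?_)
  have h2 := key y hy h1
  obtain ⟨z, hz, ⟨z', hz', ne, t1⟩, t2, -⟩ := tri hy.1 ((ih Ω _ y (le_St hK ha)
    ((ncard_le_ncard (Or_sub (sd_inv a) hy)).trans_lt (by omega)) (h y hy)).2 h2)
    (three_le (fun k hk x hx => smul_mem_Or (le_St hK ha hk) hx) (h y hy) h2)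
  have h3 : ¬ Or H a \ {a} ⊆ Or (St H a) z := fun e => h1 (by rwa [Or_eq (e hy)])
  exact h3 (ih.clique hK ha hn hz hz' ne t1 t2 (h z hz) (key z hz h3))

theorem two_of {a : Ω} (h : ∀ y ∈ Or H a \ {a}, Or (St H a) y = Or H a \ {a}) : Two H (Or H a) := by
  have key : ∀ x ∈ Or H a, ∀ y ∈ Or H a, x ≠ y → ∃ g ∈ H, g • x = a ∧ g • y ∈ Or H a \ {a} := fun x hx y hy ne => by
    obtain ⟨g, hg, e⟩ := Or_tr hx (self_mem_Or a)
    exact ⟨g, hg, e, smul_mem_Or hg hy, fun e1 => ne ((smul_left_cancel_iff g).1 (e.trans (Eq.symm e1)))⟩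
  intro x hx y hy x' hx' y' hy' n1 n2
  obtain ⟨g, hg, e1, e2⟩ := key x hx y hy n1
  obtain ⟨g', hg', e3, e4⟩ := key x' hx' y' hy' n2
  obtain ⟨t, ht, e5⟩ := (h _ e2).ge e4
  exact ⟨g'⁻¹ * t * g, mul_mem (mul_mem (inv_mem hg') ht.1) hg,
    by rw [mul_smul, mul_smul, e1, ht.2, inv_smul_eq_iff, e3], by rw [mul_smul, mul_smul, e5, inv_smul_smul]⟩

/-- Averaging over a transitive group. -/
theorem avg [Finite G] [Fintype H] {Z : Type*} [Finite Z] [MulAction G Z] {O P Q : Set Z}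
    (tr : ∀ x ∈ O, ∀ y ∈ O, ∃ h ∈ H, h • x = y) (inv : ∀ h ∈ H, ∀ x ∈ O, h • x ∈ O) (hP : P ⊆ O) (hQ : Q ⊆ O) :
    (∑ h : H, {x ∈ P | (h : G) • x ∈ Q}.ncard) * O.ncard = Nat.card H * P.ncard * Q.ncard := by
  classical
  have key : ∀ x ∈ O, ∀ y ∈ O, {h : H | (h : G) • x = y}.ncard * O.ncard = Nat.card H := fun x hx y hy => by
    have e : ∀ y ∈ O, ∀ z ∈ O, {h : H | (h : G) • x = y}.ncard ≤ {h : H | (h : G) • x = z}.ncard :=
      fun y hy z hz => by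
        obtain ⟨g, hg, e⟩ := tr y hy z hz
        exact ncard_le_ncard_of_injOn ((⟨g, hg⟩ : H) * ·) (fun h hh => by
          simp only [mem_ofPred_eq, Subgroup.coe_mul, mul_smul] at hh ⊢
          rw [hh, e]) fun _ _ _ _ e => mul_left_cancel e
    have h1 := dc_le (s := O) (t := (univ : Set H)) (fun z h => (h : G) • x = z)
      (fun z hz => (e y hy z hz).trans_eq (by simp)) (b := 1)
      fun h _ => ncard_le_one_iff_subsingleton.2 fun _ h1 _ h2 => h1.2.symm.trans h2.2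
    have h2 := dc_le (t := O) (s := (univ : Set H)) (fun h z => (h : G) • x = z) (a := 1)
      (fun h _ => (ncard_pos (toFinite _)).2 ⟨_, inv h h.2 x hx, rfl⟩) fun z hz => le_of_eq_of_le (by simp) (e z hz y hy)
    rw [ncard_univ] at h1 h2
    rw [mul_comm]; omega
  have e1 : ∀ h : H, {x ∈ P | (h : G) • x ∈ Q}.ncard = ∑ x ∈ P.toFinite.toFinset, ∑ y ∈ Q.toFinite.toFinset,
      if (h : G) • x = y then 1 else 0 := fun h => by
    rw [Finset.sum_congr rfl fun x _ => Finset.sum_ite_eq _ _ _, ← Finset.card_filter, ← ncard_coe_finset]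
    congr 1; ext; simp
  rw [Finset.sum_congr rfl fun h _ => e1 h, Finset.sum_comm, Finset.sum_mul, mul_assoc, ncard_eq_toFinset_card P,
    ncard_eq_toFinset_card Q, mul_left_comm, ← smul_eq_mul, ← Finset.sum_const]
  refine Finset.sum_congr rfl fun x hx => ?_
  rw [Finset.sum_comm, Finset.sum_mul, mul_comm, ← smul_eq_mul, ← Finset.sum_const]
  refine Finset.sum_congr rfl fun y hy => ?_
  rw [← key x (hP (by simpa using hx)) y (hQ (by simpa using hy)), ← Finset.card_filter, ← ncard_coe_finset]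
  congr 2; ext; simp

end CfsgLib.Prae
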