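import Cfsg.Agent.Lib.Prae.Three

/-! Bochert's bound for the minimal degree of a quadruply transitive group. -/

set_option autoImplicit false

namespace CfsgLib.Prae

open MulAction Set Pointwise

universe u

variable {G : Type u} [Group G] {Ω : Type u} [MulAction G Ω] {H : Subgroup G} {O : Set Ω} [Finite Ω]

theorem ex4 (h : 4 ≤ O.ncard) (x y z : Ω) : ∃ w ∈ O, x ≠ w ∧ y ≠ w ∧ z ≠ w := by
  have h1 := ncard_insert_le x {y, z}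
  have h2 := ncard_insert_le y {z}
  rw [ncard_singleton] at h2
  obtain ⟨w, h3, h4⟩ := exists_mem_notMem_of_ncard_lt_ncard (s := {x, y, z}) (t := O) (by omega)
  simp only [mem_insert_iff, mem_singleton_iff, not_or] at h4
  exact ⟨w, h3, Ne.symm h4.1, Ne.symm h4.2.1, Ne.symm h4.2.2⟩

theorem T4.t3 (t : T4 H O) (h : 4 ≤ O.ncard) {x y z x' y' z' : Ω} (hx : x ∈ O) (hy : y ∈ O) (hz : z ∈ O)
    (hx' : x' ∈ O) (hy' : y' ∈ O) (hz' : z' ∈ O) (d : D3 x y z) (d' : D3 x' y' z') :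
    ∃ g ∈ H, g • x = x' ∧ g • y = y' ∧ g • z = z' := by
  obtain ⟨w, hw, h1⟩ := ex4 h x y z
  obtain ⟨w', hw', h2⟩ := ex4 h x' y' z'
  obtain ⟨g, hg, e1, e2, e3, -⟩ := t x hx y hy z hz w hw x' hx' y' hy' z' hz' w' hw' ⟨d, h1⟩ ⟨d', h2⟩
  exact ⟨g, hg, e1, e2, e3⟩

theorem T4.t2 (t : T4 H O) (h : 4 ≤ O.ncard) : Two H O := fun x hx y hy x' hx' y' hy' d d' => by
  obtain ⟨w, hw, h1, h2, -⟩ := ex4 h x y y
  obtain ⟨w', hw', h3, h4, -⟩ := ex4 h x' y' y'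
  obtain ⟨g, hg, e1, e2, -⟩ := t.t3 h hx hy hw hx' hy' hw' ⟨d, h1, h2⟩ ⟨d', h3, h4⟩
  exact ⟨g, hg, e1, e2⟩

theorem boch_arith {c x s S1 S2 S3 S4 : ℕ} (d0 : 0 < c) (c0 : c * (x + 5) ≤ c * 2 + S1 + S2 + S3 + S4)
    (b1 : S1 * (2 * x + 12 + s + 1) = c * (x + 4) * (x + 3))
    (d2 : S2 * ((2 * x + 12 + s + 1) * (2 * x + 12 + s)) ≤ c * ((x + 9 + s) * (x + 4)) * (x + 3))
    (b3 : S3 * (2 * x + 12 + s + 1) = c * 1 * (x + 10 + s))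
    (d4 : S4 * ((2 * x + 12 + s + 1) * (2 * x + 12 + s)) ≤ c * (x + 3) * ((x + 10 + s) * (x + 3))) : False := by
  have d1 : c * ((x + 5) * ((2 * x + 12 + s + 1) * (2 * x + 12 + s))) ≤ c * (2 * ((2 * x + 12 + s + 1) * (2 * x + 12 + s)) +
      (x + 4) * (x + 3) * (2 * x + 12 + s) + (x + 9 + s) * (x + 4) * (x + 3) + (x + 10 + s) * (2 * x + 12 + s) +
      (x + 3) * ((x + 10 + s) * (x + 3))) :=
    calc _ = c * (x + 5) * ((2 * x + 12 + s + 1) * (2 * x + 12 + s)) := by ring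
      _ ≤ _ := Nat.mul_le_mul_right _ c0
      _ = c * 2 * ((2 * x + 12 + s + 1) * (2 * x + 12 + s)) + S1 * (2 * x + 12 + s + 1) * (2 * x + 12 + s) +
        S2 * ((2 * x + 12 + s + 1) * (2 * x + 12 + s)) + S3 * (2 * x + 12 + s + 1) * (2 * x + 12 + s) +
        S4 * ((2 * x + 12 + s + 1) * (2 * x + 12 + s)) := by ring
      _ ≤ _ := by
        rw [b1, b3]
        exact (add_le_add (add_le_add (add_le_add le_rfl d2) le_rfl) d4).trans_eq (by ring)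
  have := Nat.le_of_mul_le_mul_left d1 d0
  ring_nf at this
  omega

theorem boch [Finite G] (t : T4 H O) (inv : ∀ h ∈ H, ∀ x ∈ O, h • x ∈ O) {μ : ℕ}
    (hmin : ∀ h ∈ H, (∃ x ∈ O, h • x ≠ x) → μ ≤ {x ∈ O | h • x ≠ x}.ncard) {u : G} (hu : u ∈ H)
    (hμ : {x ∈ O | u • x ≠ x}.ncard = μ) (h5 : 5 ≤ μ) : O.ncard ≤ 2 * μ + 4 := by
  by_contra! hn
  set U := {x ∈ O | u • x ≠ x} with hU
  obtain ⟨α, hα⟩ : U.Nonempty := (ncard_pos (toFinite _)).1 (by omega)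
  obtain ⟨β, hβ⟩ : ∃ β, β = u • α := ⟨_, rfl⟩
  have hβ1 : β ∈ U := ⟨hβ ▸ inv u hu α hα.1, fun e => hα.2 (by rwa [hβ, smul_left_cancel_iff] at e)⟩
  have ne : α ≠ β := hβ ▸ hα.2.symm
  obtain ⟨γ, hγ, hγ1⟩ := exists_mem_notMem_of_ncard_lt_ncard (s := U) (t := O) (by omega)
  obtain ⟨g, hg, g1, g2⟩ := t.t2 (by omega) α hα.1 γ hγ β hβ1.1 α hα.1 (fun e => hγ1 (e ▸ hα)) ne.symm
  obtain ⟨v, hv, v1, v2, v3⟩ : ∃ v ∈ H, v • α = α ∧ v • β ≠ β ∧ {x ∈ O | v • x ≠ x}.ncard = μ := by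
    refine ⟨g * u * g⁻¹, mul_mem (mul_mem hg hu) (inv_mem hg), ?_, ?_, ?_⟩
    · rw [← g2, mul_smul, inv_smul_smul, mul_smul, smul_left_cancel_iff]
      exact by_contra fun e => hγ1 ⟨hγ, e⟩
    · rw [← g1, mul_smul, inv_smul_smul, mul_smul, Ne, smul_left_cancel_iff]
      exact hα.2
    · rw [← hμ, ← ncard_smul_set g U]
      congr 1; ext x
      rw [mem_smul_set_iff_inv_smul_mem, mem_ofPred_eq, mul_smul, mul_smul, Ne, smul_eq_iff_eq_inv_smul]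
      exact and_congr_left' ⟨inv _ (inv_mem hg) x, fun e => by simpa using inv g hg _ e⟩
  set V := {x ∈ O | v • x ≠ x} with hV
  set L := St (St H α) β
  set O1 := O \ {α, β} with hO1
  have m1 : ∀ {x}, x ∈ O1 ↔ x ∈ O ∧ α ≠ x ∧ β ≠ x := by simp [hO1, eq_comm]
  have fx : ∀ h ∈ L, ∀ x, (α = h • x ↔ α = x) ∧ (β = h • x ↔ β = x) := fun h hh x =>
    ⟨by rw [← smul_left_cancel_iff h (x := α) (y := x), hh.1.2], by rw [← smul_left_cancel_iff h (x := β) (y := x), hh.2]⟩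
  have i1 : ∀ h ∈ L, ∀ x ∈ O1, h • x ∈ O1 := fun h hh x hx =>
    m1.2 ⟨inv h hh.1.1 x hx.1, (fx h hh x).1.not.2 (m1.1 hx).2.1, (fx h hh x).2.not.2 (m1.1 hx).2.2⟩
  haveI := Fintype.ofFinite L
  have a1 := fun (P Q : Set Ω) => avg (H := L) (O := O1) (P := P) (Q := Q) (fun x hx y hy => by
    obtain ⟨g, hg, e1, e2, e3⟩ := t.t3 (by omega) hα.1 hβ1.1 hx.1 hα.1 hβ1.1 hy.1 ⟨ne, (m1.1 hx).2⟩ ⟨ne, (m1.1 hy).2⟩
    exact ⟨g, ⟨⟨hg, e1⟩, e2⟩, e3⟩) i1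
  have a2 := fun (P Q : Set (Ω × Ω)) => avg (H := L) (O := O1.offDiag) (P := P) (Q := Q) (fun x hx y hy => by
    obtain ⟨g, hg, e1, e2, e3, e4⟩ := t α hα.1 β hβ1.1 _ hx.1.1 _ hx.2.1.1 α hα.1 β hβ1.1 _ hy.1.1 _ hy.2.1.1
      ⟨⟨ne, (m1.1 hx.1).2⟩, (m1.1 hx.2.1).2.1, (m1.1 hx.2.1).2.2, hx.2.2⟩
      ⟨⟨ne, (m1.1 hy.1).2⟩, (m1.1 hy.2.1).2.1, (m1.1 hy.2.1).2.2, hy.2.2⟩
    exact ⟨g, ⟨⟨hg, e1⟩, e2⟩, Prod.ext e3 e4⟩) fun h hh x hx =>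
      ⟨i1 h hh _ hx.1, i1 h hh _ hx.2.1, fun e => hx.2.2 ((smul_left_cancel_iff h).1 e)⟩
  have αV : α ∉ V := fun e => e.2 v1
  have βV : β ∈ V := ⟨hβ1.1, v2⟩
  have s1 : V \ {β} ⊆ O1 := fun x hx => m1.2 ⟨hx.1.1, fun e => αV (e ▸ hx.1), Ne.symm hx.2⟩
  have s2 : U \ {α, β} ⊆ O1 := sdiff_subset_sdiff_left (sep_subset _ _)
  have s3 : O \ U ⊆ O1 := fun x hx => m1.2 ⟨hx.1, fun e => hx.2 (e ▸ hα), fun e => hx.2 (e ▸ hβ1)⟩
  have γV : v⁻¹ • β ∈ V \ {β} := ⟨⟨inv _ (inv_mem hv) β hβ1.1, by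
    rw [smul_inv_smul, Ne, eq_inv_smul_iff]; exact v2⟩, by rw [mem_singleton_iff, inv_smul_eq_iff]; exact v2.symm⟩
  have b1 := a1 _ _ s1 s2
  have b2 := a2 ((O1 \ V) ×ˢ (V \ {β})) {p ∈ O1.offDiag | p.2 = u • p.1}
    (fun p hp => ⟨hp.1.1, s1 hp.2, fun e => hp.1.2 (e ▸ hp.2.1)⟩) (sep_subset _ _)
  have b3 := a1 {v⁻¹ • β} _ (singleton_subset_iff.2 (s1 γV)) s3
  have b4 := a2 {p ∈ O1.offDiag | p.2 = v • p.1} ((O \ U) ×ˢ (U \ {α, β})) (sep_subset _ _)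
    fun p hp => ⟨s3 hp.1, s2 hp.2, fun e => hp.1.2 (e ▸ hp.2.1)⟩
  have key : ∀ h : L, μ ≤ 2 + {x ∈ V \ {β} | (h : G) • x ∈ U \ {α, β}}.ncard +
      {p ∈ (O1 \ V) ×ˢ (V \ {β}) | (h : G) • p ∈ {p ∈ O1.offDiag | p.2 = u • p.1}}.ncard +
      {x ∈ ({v⁻¹ • β} : Set Ω) | (h : G) • x ∈ O \ U}.ncard +
      {p ∈ {p ∈ O1.offDiag | p.2 = v • p.1} | (h : G) • p ∈ (O \ U) ×ˢ (U \ {α, β})}.ncard := fun ⟨h, hh⟩ => by
    obtain ⟨w, hw⟩ : ∃ w, w = h⁻¹ * u * h := ⟨_, rfl⟩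
    have w1 : ∀ x : Ω, h • w • x = u • h • x := fun x => by rw [hw, mul_smul, mul_smul, smul_inv_smul]
    have w2 : ∀ x : Ω, w • x = x ↔ u • h • x = h • x := fun x => by rw [← w1, smul_left_cancel_iff]
    have wH : w ∈ H := hw ▸ mul_mem (mul_mem (inv_mem hh.1.1) hu) hh.1.1
    have w3 : w • α = β := by rw [← smul_left_cancel_iff h, w1, hh.1.2, hh.2, hβ]
    have c1 := hmin ((v * w)⁻¹ * (w * v)) (mul_mem (inv_mem (mul_mem hv wH)) (mul_mem wH hv)) ⟨α, hα.1, by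
      rw [mul_smul, Ne, inv_smul_eq_iff, mul_smul, mul_smul, v1, w3]; exact v2.symm⟩
    refine c1.trans ((ncard_le_ncard (t := {α, β} ∪ {x ∈ V \ {β} | h • x ∈ U \ {α, β}} ∪
      Prod.fst '' {p ∈ (O1 \ V) ×ˢ (V \ {β}) | h • p ∈ {p ∈ O1.offDiag | p.2 = u • p.1}} ∪
      {x ∈ ({v⁻¹ • β} : Set Ω) | h • x ∈ O \ U} ∪
      Prod.fst '' {p ∈ {p ∈ O1.offDiag | p.2 = v • p.1} | h • p ∈ (O \ U) ×ˢ (U \ {α, β})}) fun x hx => ?_).trans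
      ((ncard_union_le _ _).trans (add_le_add ((ncard_union_le _ _).trans (add_le_add ((ncard_union_le _ _).trans
        (add_le_add ((ncard_union_le _ _).trans (add_le_add (ncard_pair ne).le le_rfl)) (ncard_image_le (toFinite _))))
        le_rfl)) (ncard_image_le (toFinite _)))))
    have h1 := hx.2
    rw [mul_smul, Ne, inv_smul_eq_iff, mul_smul, mul_smul] at h1
    by_cases h2 : x ∈ O1
    swap
    · exact Or.inl (Or.inl (Or.inl (Or.inl (by_contra fun e => h2 ⟨hx.1, e⟩))))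
    have h3 := i1 h hh x h2
    by_cases h4 : v • x = x <;> by_cases h5 : w • x = x
    · exact absurd (by rw [h4, h5, h4]) h1
    · rw [h4] at h1
      have h6 : w • x ∈ V \ {β} := ⟨⟨inv w wH x hx.1, Ne.symm h1⟩, fun e => (m1.1 h2).2.1 <| by
        rw [← smul_left_cancel_iff w, w3]; exact Eq.symm e⟩
      exact Or.inl (Or.inl (Or.inr ⟨(x, w • x), ⟨⟨⟨h2, fun e => e.2 h4⟩, h6⟩, ⟨h3, i1 h hh _ (s1 h6), fun e =>
        h5 ((smul_left_cancel_iff h).1 e).symm⟩, w1 x⟩, rfl⟩))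
    · rw [h5] at h1
      have h6 : h • x ∈ O \ U := ⟨h3.1, fun e => e.2 ((w2 x).1 h5)⟩
      by_cases h7 : β = v • x
      · exact Or.inl (Or.inr ⟨by rw [h7, inv_smul_smul]; rfl, h6⟩)
      have h8 : v • x ∈ O1 := m1.2 ⟨inv v hv x hx.1, fun e => (m1.1 h2).2.1 <| by
        rw [← smul_left_cancel_iff v, v1]; exact e, h7⟩
      exact Or.inr ⟨(x, v • x), ⟨⟨⟨h2, h8, Ne.symm h4⟩, rfl⟩, h6, ⟨(i1 h hh _ h8).1, fun e => h1 ((w2 _).2 e)⟩,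
        (i1 h hh _ h8).2⟩, rfl⟩
    · exact Or.inl (Or.inl (Or.inl (Or.inr ⟨⟨⟨hx.1, h4⟩, Ne.symm (m1.1 h2).2.2⟩, ⟨h3.1, fun e => h5 ((w2 x).2 e)⟩, h3.2⟩)))
  have c0 := Finset.sum_le_sum (s := Finset.univ) fun h _ => key h
  simp only [Finset.sum_add_distrib, Finset.sum_const, Finset.card_univ, smul_eq_mul, ← Nat.card_eq_fintype_card] at c0
  have sp : ({α, β} : Set Ω) ⊆ U := insert_subset hα (singleton_subset_iff.2 hβ1)
  have c1 := ncard_sdiff_singleton_add_one βV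
  have c2 := ncard_sdiff_add_ncard_of_subset sp
  have c3 := ncard_sdiff_add_ncard_of_subset (sp.trans (sep_subset _ _))
  have c4 : (O \ U).ncard + U.ncard = O.ncard := ncard_sdiff_add_ncard_of_subset (sep_subset _ _)
  have c5 := ncard_sdiff_add_ncard_of_subset s1
  rw [show O1 \ (V \ {β}) = O1 \ V from Set.ext fun x => and_congr_right fun hx =>
    not_congr (and_iff_left (Ne.symm (m1.1 hx).2.2))] at c5
  have c6 : {p ∈ O1.offDiag | p.2 = u • p.1}.ncard ≤ (U \ {α, β}).ncard := ncard_le_ncard_of_injOn Prod.fst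
    (fun p hp => ⟨⟨hp.1.1.1, fun e => hp.1.2.2 (hp.2.trans e).symm⟩, hp.1.1.2⟩)
    fun p hp q hq e => Prod.ext e (by rw [hp.2, hq.2, e])
  have c7 : {p ∈ O1.offDiag | p.2 = v • p.1}.ncard ≤ ((V \ {β}) \ {v⁻¹ • β}).ncard := ncard_le_ncard_of_injOn Prod.fst
    (fun p hp => ⟨⟨⟨hp.1.1.1, fun e => hp.1.2.2 (hp.2.trans e).symm⟩, Ne.symm (m1.1 hp.1.1).2.2⟩, fun e =>
      (m1.1 hp.1.2.1).2.2 (by rw [hp.2, show p.1 = _ from e, smul_inv_smul])⟩)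
    fun p hp q hq e => Prod.ext e (by rw [hp.2, hq.2, e])
  have c8 := ncard_sdiff_singleton_add_one γV
  have c9 : O1.offDiag.ncard = O1.ncard * O1.ncard - O1.ncard := by
    classical
    rw [← O1.toFinite.coe_toFinset, ← Finset.coe_offDiag, ncard_coe_finset, ncard_coe_finset, Finset.offDiag_card]
  rw [ncard_pair ne] at c2 c3
  rw [← hO1] at c3
  obtain ⟨x, rfl⟩ : ∃ x, μ = x + 5 := ⟨μ - 5, by omega⟩
  obtain ⟨s, hs⟩ : ∃ s, O.ncard = 2 * x + 15 + s := ⟨O.ncard - (2 * x + 15), by omega⟩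
  have e1 : O1.ncard = 2 * x + 12 + s + 1 := by omega
  rw [e1, mul_add_one, Nat.add_sub_cancel] at c9
  rw [ncard_prod, c9] at b2 b4
  rw [ncard_singleton] at b3
  rw [show (V \ {β}).ncard = x + 4 by omega] at b1 b2
  rw [show (U \ {α, β}).ncard = x + 3 by omega] at b1 b4 c6
  rw [show (O \ U).ncard = x + 10 + s by omega] at b3 b4
  rw [show (O1 \ V).ncard = x + 9 + s by omega] at b2
  rw [show ((V \ {β}) \ {v⁻¹ • β}).ncard = x + 3 by omega] at c7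
  rw [e1] at b1 b3
  have d2 := b2.trans_le (Nat.mul_le_mul_left _ c6)
  have d4 := b4.trans_le (Nat.mul_le_mul_right _ (Nat.mul_le_mul_left _ c7))
  exact boch_arith Nat.card_pos c0 b1 d2 b3 d4

end CfsgLib.Prae
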