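import Cfsg.Agent.Lib.Prae.Boch

/-! Fixed points of pronormal subgroups: the quadruply transitive case. -/

set_option autoImplicit false

namespace CfsgLib.Prae

open MulAction Set Pointwise

universe u

variable {G : Type u} [Group G] {Ω : Type u} [MulAction G Ω] {K : Subgroup G}

/-- The action on an invariant set. -/
@[reducible] def act (N : Subgroup G) (O : Set Ω) (inv : ∀ g ∈ N, ∀ x ∈ O, g • x ∈ O) : MulAction N O where
  smul g x := ⟨(g : G) • (x : Ω), inv g g.2 x x.2⟩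
  one_smul x := Subtype.ext (one_smul G (x : Ω))
  mul_smul g h x := Subtype.ext (mul_smul (g : G) (h : G) (x : Ω))

/-- The permutation representation on an invariant set. -/
def res (N : Subgroup G) (O : Set Ω) (inv : ∀ g ∈ N, ∀ x ∈ O, g • x ∈ O) : N →* Equiv.Perm O :=
  letI := act N O inv
  toPermHom N O

theorem res_apply {N : Subgroup G} {O : Set Ω} {inv : ∀ g ∈ N, ∀ x ∈ O, g • x ∈ O} (g : N) (x : O) :
    (res N O inv g x : Ω) = (g : G) • (x : Ω) := rfl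

variable [Finite G] [Finite Ω]

theorem Top.five (h : Top K Ω) {O : Set Ω} (hO : ∀ k ∈ K, ∀ x ∈ O, k • x ∈ O) (h1 : O ⊆ (Fx K Ω)ᶜ)
    (h2 : O.Nonempty) : 5 ≤ O.ncard := by
  by_contra h3
  have h4 := h.four
  obtain ⟨P, h5, -, h6⟩ := exists_subsuperset_card_eq h1 (n := 4) (by omega) (by rwa [h.card_compl])
  obtain ⟨Q, h7, h8⟩ := exists_subset_card_eq h4
  obtain ⟨a, b, c, d, n1, n2, n3, n4, n5, n6, rfl⟩ := ncard_eq_four.1 h6
  obtain ⟨a', b', c', d', m1, m2, m3, m4, m5, m6, rfl⟩ := ncard_eq_four.1 h8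
  obtain ⟨g, -, e1, e2, e3, e4⟩ := h.t4 a trivial b trivial c trivial d trivial a' trivial b' trivial c' trivial
    d' trivial ⟨⟨n1, n2, n4⟩, n3, n5, n6⟩ ⟨⟨m1, m2, m4⟩, m3, m5, m6⟩
  refine h.not_all hO h1 h2 g fun x hx => h7 ?_
  rcases h5 hx with rfl | rfl | rfl | rfl <;> simp [*]

theorem Top.five' (h : Top K Ω) : 5 ≤ (Fx K Ω).ncard :=
  h.card_compl ▸ h.five (fun _ hk _ hx => compl_inv hk hx) subset_rfl h.ne

theorem Top.t4N (h : Top K Ω) : T4 (stabilizer G (Fx K Ω)) (Fx K Ω) :=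
  fun x hx y hy z hz w hw x' hx' y' hy' z' hz' w' hw' d d' => by
    obtain ⟨g, -, rfl, rfl, rfl, rfl⟩ := h.t4 x trivial y trivial z trivial w trivial x' trivial y' trivial z' trivial
      w' trivial d d'
    obtain ⟨v, -, e1, e2⟩ := h.pr.w1 Ω le_top (Subgroup.mem_top g)
    exact ⟨v, mem_stabilizer_set.2 e1, e2 x hx hx', e2 y hy hy', e2 z hz hz', e2 w hw hw'⟩

theorem Top.no3 (h : Top K Ω) {t : G} {x y z : Ω} (d : D3 x y z) (h1 : t • x = y)
    (h2 : ∀ w, x ≠ w → y ≠ w → z ≠ w → t • w = w) : False := by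
  obtain ⟨g, -, hg⟩ := exists_max_image (univ : Set G) (fun g => {s ∈ (Fx K Ω)ᶜ | g • s ∈ Fx K Ω}.ncard)
    (toFinite _) ⟨1, trivial⟩
  obtain ⟨s, hs, h3⟩ : ∃ s ∈ (Fx K Ω)ᶜ, g • s ∉ Fx K Ω := by
    simpa using h.not_all (fun k hk x hx => compl_inv hk hx) subset_rfl h.ne g
  obtain ⟨a, ha, h4⟩ := exists_mem_notMem_of_ncard_lt_ncard (s := (Fx K Ω)ᶜ \ {s}) (t := g⁻¹ • Fx K Ω) (by
    have := ncard_sdiff_singleton_add_one hs
    rw [ncard_smul_set, ← h.card_compl]; omega)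
  obtain ⟨b, hb, h5⟩ := exists_mem_notMem_of_ncard_lt_ncard (s := {s}) (t := g⁻¹ • (Fx K Ω)ᶜ) (by
    have := h.two
    rw [ncard_smul_set, h.card_compl, ncard_singleton]; omega)
  rw [mem_smul_set_iff_inv_smul_mem, inv_inv] at ha hb
  have n1 : s ≠ a := fun e => h3 (e ▸ ha)
  obtain ⟨r, rfl, rfl, rfl⟩ := h.t3 x y z s a b d ⟨n1, Ne.symm h5, fun e => hb (e ▸ ha)⟩
  refine (hg (g * (r * t * r⁻¹)) trivial).not_gt (ncard_lt_ncard ⟨fun w hw => ⟨hw.1, ?_⟩, fun e => h3 (e ⟨hs, ?_⟩).2⟩)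
  · rw [mul_smul, mul_smul, mul_smul, h2, smul_inv_smul]
    · exact hw.2
    all_goals rw [Ne, eq_inv_smul_iff]; rintro rfl
    · exact h3 hw.2
    · exact h4 ⟨hw.1, n1.symm⟩
    · exact hb hw.2
  · rwa [mul_smul, mul_smul, mul_smul, inv_smul_smul, h1]

theorem Top.supp5 (h : Top K Ω) {u : G} (hu : u ∈ stabilizer G (Fx K Ω)) {d : Ω} (hd : d ∈ Fx K Ω) (h1 : u • d ≠ d) :
    5 ≤ {x ∈ Fx K Ω | u • x ≠ x}.ncard := by
  classical
  by_contra h2
  have m5 := h.five'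
  set F := Fx K Ω with hF
  set N := stabilizer G F
  have iF : ∀ g ∈ N, ∀ x ∈ F, g • x ∈ F := fun g hg x hx => (mem_stabilizer_set.1 hg x).2 hx
  have iS : ∀ g ∈ N, ∀ x ∈ Fᶜ, g • x ∈ Fᶜ := fun g hg x hx e => hx ((mem_stabilizer_set.1 hg x).1 e)
  set U := {x ∈ F | u • x ≠ x}
  obtain ⟨P, h3, h4, h5⟩ := exists_subsuperset_card_eq (n := 3) (s := U \ {d}) (t := F \ {d})
    (sdiff_subset_sdiff_left (sep_subset _ _)) (by have := ncard_sdiff_singleton_add_one (s := U) ⟨hd, h1⟩; omega)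
    (by have := ncard_sdiff_singleton_add_one hd; omega)
  obtain ⟨a, b, c, n1, n2, n3, rfl⟩ := ncard_eq_three.1 h5
  have ha := h4 (Or.inl rfl)
  have hb := h4 (Or.inr (Or.inl rfl))
  have hc := h4 (Or.inr (Or.inr rfl))
  obtain ⟨e, he, n4, n5, n6⟩ := ex4 (O := F \ {d}) (by have := ncard_sdiff_singleton_add_one hd; omega) a b c
  obtain ⟨g, hg, e1, e2, e3, e4⟩ := h.t4N a ha.1 b hb.1 c hc.1 d hd a ha.1 b hb.1 c hc.1 e he.1
    ⟨⟨n1, n2, n3⟩, ha.2, hb.2, hc.2⟩ ⟨⟨n1, n2, n3⟩, n4, n5, n6⟩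
  have g1 : ∀ x ∈ U, x ≠ d → g • x = x := fun x hx ne => by
    rcases h3 ⟨hx, ne⟩ with rfl | rfl | rfl <;> assumption
  have g2 : u • e = e := by_contra fun e5 => by
    rcases h3 ⟨⟨he.1, e5⟩, he.2⟩ with rfl | rfl | rfl <;> contradiction
  have g3 : ∀ x ∈ F, e ≠ x → (x ∉ U ∨ x = d) → (g * u * g⁻¹) • x = x := fun x hx h6 h7 => by
    rw [mul_smul, mul_smul, smul_eq_iff_eq_inv_smul]
    by_contra h8
    have h9 : g⁻¹ • x ≠ d := fun e5 => h6 (by rw [← e4, ← e5, smul_inv_smul])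
    have := g1 _ ⟨iF _ (inv_mem hg) x hx, h8⟩ h9
    rw [smul_inv_smul] at this
    rw [← this] at h8 h9
    exact h7.elim (· ⟨hx, h8⟩) h9
  have g4 : ∀ x ∈ U, x ≠ d → (g * u * g⁻¹) • x = g • u • x := fun x hx ne => by
    rw [mul_smul, mul_smul, inv_smul_eq_iff.2 (g1 x hx ne).symm]
  have cU : u⁻¹ • d ∈ U := ⟨iF _ (inv_mem hu) d hd, by rw [smul_inv_smul, Ne, eq_inv_smul_iff]; exact h1⟩
  have cd : u⁻¹ • d ≠ d := by rw [Ne, inv_smul_eq_iff]; exact h1.symm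
  let φ := res N F iF
  let ψ := res N Fᶜ iS
  haveI := Fintype.ofFinite F
  haveI := Fintype.ofFinite ↥Fᶜ
  have wN : (g * u * g⁻¹)⁻¹ * u ∈ N := mul_mem (inv_mem (mul_mem (mul_mem hg hu) (inv_mem hg))) hu
  have w3 : (φ ⟨_, wN⟩).IsThreeCycle := by
    rw [← card_support_eq_three_iff, Finset.card_eq_three]
    refine ⟨⟨_, cU.1⟩, ⟨d, hd⟩, ⟨e, he.1⟩, fun e5 => cd (congrArg Subtype.val e5), fun e5 => cU.2 ?_,
      fun e5 => he.2 (congrArg Subtype.val e5).symm, Finset.ext fun x => ?_⟩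
    · rw [show u⁻¹ • d = e from congrArg Subtype.val e5, g2]
    simp only [Equiv.Perm.mem_support, Finset.mem_insert, Finset.mem_singleton, Ne, Subtype.ext_iff]
    rw [res_apply, mul_smul, inv_smul_eq_iff]
    refine ⟨fun h6 => by_contra fun h7 => h6 ?_, ?_⟩
    · push Not at h7
      by_cases h8 : x.1 ∈ U
      · rw [g4 _ h8 h7.2.1, g1 _ ⟨iF u hu _ x.2, fun e5 => h8.2 ((smul_left_cancel_iff u).1 e5)⟩
          fun e5 => h7.1 (by rw [← e5, inv_smul_smul])]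
      · rw [g3 _ x.2 h7.2.2.symm (Or.inl h8)]
        exact by_contra fun e5 => h8 ⟨x.2, e5⟩
    · rintro (e5 | e5 | e5) <;> rw [e5]
      · rw [g4 _ cU cd, smul_inv_smul, e4]
        exact Ne.symm he.2
      · rwa [g3 d hd he.2 (Or.inr rfl)]
      · rw [g2, ← e4, mul_smul, inv_smul_smul, mul_smul, smul_left_cancel_iff]
        exact h1.symm
  have hA : alternatingGroup F ≤ φ.range := Equiv.Perm.alternatingGroup_le_of_isPreprimitive_of_isThreeCycle_mem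
    (isPreprimitive_of_is_two_pretransitive (is_two_pretransitive_iff.2 fun {x y x' y'} h6 h7 => by
      obtain ⟨g, hg, e5, e6⟩ := h.t4N.t2 h.four x x.2 y y.2 x' x'.2 y' y'.2 (Subtype.coe_ne_coe.2 h6)
        (Subtype.coe_ne_coe.2 h7)
      exact ⟨⟨_, ⟨g, hg⟩, rfl⟩, Subtype.ext e5, Subtype.ext e6⟩)) w3 ⟨_, rfl⟩
  have cF : Nat.card F = F.ncard := Nat.card_coe_set_eq _
  by_cases h6 : ψ.ker ≤ φ.ker
  · obtain ⟨s, hs⟩ := h.ne
    have c1 := h.five (O := Or φ.ker s) (fun k hk x hx => smul_mem_Or (h := ⟨k, mem_stabilizer_set.2 fun y =>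
      ⟨fun e => by_contra fun e5 => compl_inv hk e5 e, fun e => by rwa [e k hk]⟩⟩)
      (Equiv.ext fun y => Subtype.ext (y.2 k hk)) hx) (Or_sub (fun g _ x hx => iS g g.2 x hx) hs) ⟨s, self_mem_Or s⟩
    have c2 := Or_card (H := φ.ker) s
    have c3 : Nat.card ψ.ker ≤ Nat.card (St φ.ker s) := Subgroup.card_le_of_le fun g hg =>
      ⟨h6 hg, congrArg Subtype.val (Equiv.ext_iff.1 hg ⟨s, hs⟩)⟩
    have c4 := φ.ker.index_mul_card
    have c5 := ψ.ker.index_mul_card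
    rw [Subgroup.index_ker] at c4 c5
    have c6 := Subgroup.card_le_of_le hA
    haveI : Nontrivial F := Finite.one_lt_card_iff_nontrivial.1 (by omega)
    have c7 := two_mul_nat_card_alternatingGroup (α := F)
    have c8 := ψ.range.card_le_card_group
    rw [Nat.card_perm, Nat.card_coe_set_eq, h.card_compl] at c8
    rw [Nat.card_perm, cF] at c7
    have c9 : 0 < Nat.card N := Nat.card_pos
    rw [← hF, ← c7] at c8
    have := Nat.mul_le_mul c6 (c2 ▸ Nat.mul_le_mul c1 c3)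
    have := Nat.mul_le_mul_right (Nat.card ψ.ker) c8
    nlinarith
  obtain ⟨t, ht, h7⟩ := SetLike.not_le_iff_exists.1 h6
  obtain ⟨x, hx⟩ : ∃ x, φ t x ≠ x := by_contra fun e5 => h7 (Equiv.ext (by simpa using e5))
  obtain ⟨y, hy, n7, n8, -⟩ := ex4 (O := F) h.four x (φ t x) x
  obtain ⟨z, hz, n9, n10, n11⟩ := ex4 (O := F) h.four x (φ t x) y
  have s3 := Equiv.Perm.isThreeCycle_swap_mul_swap_same (a := x) (b := ⟨z, hz⟩) (c := ⟨y, hy⟩)
    (fun e => n9 (congrArg Subtype.val e)) (fun e => n7 (congrArg Subtype.val e)) fun e => n11 (congrArg Subtype.val e).symm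
  have s4 : ∀ w : F, x.1 ≠ w → y ≠ w → z ≠ w → (Equiv.swap x ⟨z, hz⟩ * Equiv.swap x ⟨y, hy⟩) w = w :=
    fun w e5 e6 e7 => by
      rw [Equiv.Perm.mul_apply, Equiv.swap_apply_of_ne_of_ne (x := w) (fun e => e5 (congrArg Subtype.val e).symm)
        (fun e => e6 (congrArg Subtype.val e).symm), Equiv.swap_apply_of_ne_of_ne
        (fun e => e5 (congrArg Subtype.val e).symm) fun e => e7 (congrArg Subtype.val e).symm]
  have s5 : (Equiv.swap x ⟨z, hz⟩ * Equiv.swap x ⟨y, hy⟩) x = ⟨y, hy⟩ := by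
    rw [Equiv.Perm.mul_apply, Equiv.swap_apply_left, Equiv.swap_apply_of_ne_of_ne
      (fun e => n7 (congrArg Subtype.val e).symm) fun e => n11 (congrArg Subtype.val e)]
  have s6 := s3.mem_alternatingGroup
  generalize Equiv.swap x ⟨z, hz⟩ * Equiv.swap x ⟨y, hy⟩ = σ at s4 s5 s6
  haveI : ((ψ.ker.map φ).subgroupOf (alternatingGroup F)).Normal := ⟨fun _ ⟨a, ha1, ha2⟩ ⟨b, hb⟩ => by
    obtain ⟨b, rfl⟩ := hA hb
    exact ⟨b * a * b⁻¹, (MonoidHom.normal_ker ψ).conj_mem a ha1 b, by simp [ha2]⟩⟩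
  rcases alternatingGroup.normal_subgroup_eq_bot_or_eq_top (N := (ψ.ker.map φ).subgroupOf (alternatingGroup F))
    (by omega) with e5 | e5
  · obtain ⟨r, rfl⟩ := hA s6
    have := e5.le (x := ⟨φ t * φ r * (φ t)⁻¹ * (φ r)⁻¹, mul_mem (Subgroup.Normal.conj_mem inferInstance _ s6 _) (inv_mem s6)⟩)
      ⟨t * (r * t⁻¹ * r⁻¹), mul_mem ht ((MonoidHom.normal_ker ψ).conj_mem _ (inv_mem ht) r), by simp [mul_assoc]⟩
    have e6 := Equiv.ext_iff.1 (mul_inv_eq_iff_eq_mul.1 (mul_inv_eq_one.1 (congrArg Subtype.val this))) x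
    rw [Equiv.Perm.mul_apply, Equiv.Perm.mul_apply, s5, s4 _ (fun e => hx (Subtype.ext e.symm)) n8.symm n10.symm] at e6
    exact n7 (congrArg Subtype.val ((φ t).injective e6)).symm
  · obtain ⟨r, hr, e6⟩ := e5.ge (Subgroup.mem_top ⟨σ, s6⟩)
    replace e6 : φ r = σ := e6
    subst e6
    refine h.no3 (t := r) ⟨n7, n9, n11⟩ (congrArg Subtype.val s5) fun w e7 e8 e9 => ?_
    by_cases h8 : w ∈ F
    · exact congrArg Subtype.val (s4 ⟨w, h8⟩ e7 e8 e9)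
    · exact congrArg Subtype.val (Equiv.ext_iff.1 hr ⟨w, h8⟩)

theorem Top.full (h : Top K Ω) {μ : ℕ} (hmin : ∀ u ∈ stabilizer G (Fx K Ω), (∃ x ∈ Fx K Ω, u • x ≠ x) →
    μ ≤ {x ∈ Fx K Ω | u • x ≠ x}.ncard) {U : Set Ω} (hU : U ⊆ Fx K Ω) (h1 : U.ncard < μ)
    (h2 : ∀ x ∈ U, ∃ g : G, (∀ y ∈ Fx K Ω \ U, g • y = y) ∧ g • x ≠ x) : U.ncard * 5 ≤ (Fx K Ω).ncard := by
  set M := fixingSubgroup G (Fx K Ω \ U)
  have hK : K ≤ M := fun k hk => (mem_fixingSubgroup_iff G).2 fun y hy => hy.1 k hk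
  have key : ∀ x ∈ U, ∀ y ∈ Or M x, y ∈ Fx K Ω → y = x := by
    rintro x hx _ ⟨g, hg, rfl⟩ hy
    obtain ⟨v, hv, e1, e2⟩ := h.pr.w1 Ω hK hg
    rw [← e2 x (hU hx) hy]
    by_contra e3
    exact ((hmin v (mem_stabilizer_set.2 e1) ⟨x, hU hx, e3⟩).trans (ncard_le_ncard fun z hz => by_contra fun e4 =>
      hz.2 ((mem_fixingSubgroup_iff G).1 hv z ⟨hz.1, e4⟩))).not_gt h1
  simpa [h.card_compl] using dc_le (s := U) (t := (Fx K Ω)ᶜ) (fun x y => y ∈ Or M x) (a := 5) (b := 1) (fun x hx => by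
    obtain ⟨g, hg, e⟩ := h2 x hx
    have hg' := (mem_fixingSubgroup_iff G).2 hg
    exact h.five (fun k hk y hy => ⟨compl_inv hk hy.1, smul_mem_Or (hK hk) hy.2⟩) (sep_subset _ _)
      ⟨g • x, fun e1 => e (key x hx _ ⟨g, hg', rfl⟩ e1), g, hg', rfl⟩) fun y _ =>
    ncard_le_one_iff_subsingleton.2 fun x hx x' hx' => key x' hx'.1 x (Or_eq hx'.2 ▸ Or_tr hx.2 (self_mem_Or x)) (hU hx.1)

theorem Top.elim (h : Top K Ω) : False := by
  have m5 := h.five'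
  set F := Fx K Ω with hF
  have iF : ∀ g ∈ stabilizer G F, ∀ x ∈ F, g • x ∈ F := fun g hg x hx => (mem_stabilizer_set.1 hg x).2 hx
  have t2 : Two (stabilizer G F) F := h.t4N.t2 h.four
  obtain ⟨u, ⟨hu, d, hd, h1⟩, hmin⟩ := exists_min_image {u ∈ stabilizer G F | ∃ x ∈ F, u • x ≠ x}
    (fun u => {x ∈ F | u • x ≠ x}.ncard) (toFinite _) (by
      obtain ⟨a, ha, b, hb, ne⟩ := (one_lt_ncard (toFinite F)).1 (by omega)
      obtain ⟨g, hg, e, -⟩ := t2 a ha b hb b hb a ha ne ne.symm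
      exact ⟨g, hg, a, ha, e ▸ ne.symm⟩)
  have b1 : 5 ≤ {x ∈ F | u • x ≠ x}.ncard := h.supp5 hu hd h1
  have b2 := boch h.t4N iF (fun v hv e => hmin v ⟨hv, e⟩) hu rfl b1
  have full := fun U => h.full (fun v hv e => hmin v ⟨hv, e⟩) (U := U)
  rw [← hF] at b2 full
  generalize {x ∈ F | u • x ≠ x}.ncard = μ at b1 b2 full
  have nf : ∀ U ⊆ F, U.Nonempty → (∀ x ∈ U, ∃ g : G, (∀ y ∈ F \ U, g • y = y) ∧ g • x ≠ x) → μ ≤ U.ncard :=
    fun U0 a1 a2 a3 => by_contra fun a4 => by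
    obtain ⟨U, ⟨h2, ⟨x, hx⟩, h3, h4⟩, hmax⟩ := exists_max_image {U | U ⊆ F ∧ U.Nonempty ∧
      (∀ x ∈ U, ∃ g : G, (∀ y ∈ F \ U, g • y = y) ∧ g • x ≠ x) ∧ U.ncard * 5 ≤ F.ncard} ncard (toFinite _)
      ⟨U0, a1, a2, a3, full U0 a1 (by omega) a3⟩
    obtain ⟨z, hz, h5⟩ := exists_mem_notMem_of_ncard_lt_ncard (s := U) (t := F) (by omega)
    obtain ⟨g, hg, h6, h7⟩ : ∃ g ∈ stabilizer G F, z ∈ g • U ∧ (U ∪ g • U).ncard < μ := by
      by_cases h8 : ∃ y ∈ U, x ≠ y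
      · obtain ⟨y, hy, h8⟩ := h8
        obtain ⟨g, hg, e1, e2⟩ := t2 x (h2 hx) y (h2 hy) x (h2 hx) z hz h8 fun e => h5 (e ▸ hx)
        have := ncard_union_add_ncard_inter U (g • U)
        have := (ncard_pos (toFinite (U ∩ g • U))).2 ⟨x, hx, x, hx, e1⟩
        refine ⟨g, hg, ⟨y, hy, e2⟩, ?_⟩
        rw [ncard_smul_set] at *
        omega
      · obtain ⟨g, hg, e1, -⟩ := t2 x (h2 hx) z hz z hz x (h2 hx) (fun e => h5 (e ▸ hx)) fun e => h5 (e ▸ hx)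
        have := ncard_union_le U (g • U)
        have := (ncard_le_one_iff_subsingleton (s := U)).2 fun a ha b hb => by
          push Not at h8
          rw [← h8 a ha, h8 b hb]
        refine ⟨g, hg, ⟨x, hx, e1⟩, ?_⟩
        rw [ncard_smul_set] at *
        omega
    have h8 : U ∪ g • U ⊆ F := union_subset h2 (by rintro _ ⟨y, hy, rfl⟩; exact iF g hg y (h2 hy))
    have h9 : ∀ x ∈ U ∪ g • U, ∃ t : G, (∀ y ∈ F \ (U ∪ g • U), t • y = y) ∧ t • x ≠ x := by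
      rintro x (hx | ⟨x, hx, rfl⟩)
      · exact (h3 x hx).imp fun t ht => ⟨fun y hy => ht.1 y ⟨hy.1, fun e => hy.2 (Or.inl e)⟩, ht.2⟩
      · obtain ⟨t, e1, e2⟩ := h3 x hx
        refine ⟨g * t * g⁻¹, fun y hy => ?_, by rwa [mul_smul, inv_smul_smul, mul_smul, Ne, smul_left_cancel_iff]⟩
        rw [mul_smul, mul_smul, e1 _ ⟨iF _ (inv_mem hg) y hy.1, fun e => hy.2 (Or.inr
          (mem_smul_set_iff_inv_smul_mem.2 e))⟩, smul_inv_smul]
    exact (hmax _ ⟨h8, ⟨x, Or.inl hx⟩, h9, full _ h8 h7 h9⟩).not_gt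
      (ncard_lt_ncard ⟨subset_union_left, fun e => h5 (e (Or.inr h6))⟩)
  obtain ⟨g, hg, hmin⟩ := exists_min_image {g : G | ¬ F ⊆ g • F} (fun g => (F \ g • F).ncard) (toFinite _) (by
    obtain ⟨s, hs⟩ := h.ne
    obtain ⟨g, e⟩ := h.tr s d
    exact ⟨g, fun e1 => hs (by simpa [← e] using e1 hd)⟩)
  have c0 : ∀ g : G, (g • F \ F).ncard = (F \ g • F).ncard := fun g => by
    have := ncard_inter_add_ncard_sdiff_eq_ncard F (g • F)
    have := ncard_inter_add_ncard_sdiff_eq_ncard (g • F) F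
    rw [ncard_smul_set, inter_comm] at this
    omega
  have c1 : μ ≤ (F \ g • F).ncard := nf _ sdiff_subset (nonempty_of_not_subset hg) fun x hx => by
    obtain ⟨k, hk, e⟩ : ∃ k ∈ K, k • g⁻¹ • x ≠ g⁻¹ • x := by
      simpa [hF, Fx] using mem_smul_set_iff_inv_smul_mem.not.1 hx.2
    refine ⟨g * k * g⁻¹, fun y hy => ?_, by rwa [mul_smul, mul_smul, Ne, smul_eq_iff_eq_inv_smul]⟩
    rw [mul_smul, mul_smul, mem_smul_set_iff_inv_smul_mem.1 (by_contra fun e => hy.2 ⟨hy.1, e⟩ : y ∈ g • F) k hk,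
      smul_inv_smul]
  have c2 : 2 * (F \ g • F).ncard < F.ncard := by
    by_contra! c2
    obtain ⟨a, b, c, ha, hb, hc, d1⟩ := (two_lt_ncard_iff (toFinite F)).1 (by omega)
    obtain ⟨s, hs⟩ := h.ne
    obtain ⟨t, e1, e2, e3⟩ := h.t3 s b c a b c ⟨fun e => hs (e ▸ hb), fun e => hs (e ▸ hc), d1.2.2⟩ d1
    set L := St (St (St (⊤ : Subgroup G) a) b) c
    haveI := Fintype.ofFinite L
    have ht : a ∉ t • F := fun e => hs (by simpa [← e1] using e)
    have s1 : ({b, c} : Set Ω) ⊆ t • F := insert_subset ⟨b, hb, e2⟩ (singleton_subset_iff.2 ⟨c, hc, e3⟩)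
    have s2 : ({a, b, c} : Set Ω) ⊆ F := insert_subset ha (insert_subset hb (singleton_subset_iff.2 hc))
    have m1 : ∀ {x}, x ∈ univ \ {a, b, c} ↔ D4 a b c x := by simp [D4, D3, d1, eq_comm]
    have a1 := avg (H := L) (O := univ \ {a, b, c}) (P := F \ {a, b, c}) (Q := t • F \ {b, c}) (fun x hx y hy => by
      obtain ⟨g, -, e1, e2, e3, e4⟩ := h.t4 a trivial b trivial c trivial x trivial a trivial b trivial c trivial
        y trivial (m1.1 hx) (m1.1 hy)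
      exact ⟨g, ⟨⟨⟨trivial, e1⟩, e2⟩, e3⟩, e4⟩) (fun r hr x hx => m1.2 <| by
        have := (m1.1 hx).smul r
        rwa [hr.1.1.2, hr.1.2, hr.2] at this) (sdiff_subset_sdiff_left (subset_univ _))
      fun x hx => ⟨trivial, fun e => e.elim (fun e => ht (e ▸ hx.1)) hx.2⟩
    have a2 := Finset.sum_le_sum (s := Finset.univ) (f := fun r : L => 2 * {x ∈ F \ {a, b, c} | (r : G) • x ∈
      t • F \ {b, c}}.ncard + 4) (g := fun _ => F.ncard) fun ⟨r, hr⟩ _ => by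
      have f1 := hmin (r⁻¹ * t) fun e => ht (by simpa [mul_smul, mem_inv_smul_set_iff, hr.1.1.2] using e ha)
      have f2 := ncard_inter_add_ncard_sdiff_eq_ncard F ((r⁻¹ * t) • F)
      have f3 := ncard_sdiff_add_ncard_of_subset (s := {b, c}) (t := F ∩ (r⁻¹ * t) • F) (subset_inter
        ((subset_insert _ _).trans s2) (by
          rintro _ (rfl | rfl) <;> rw [mul_smul, mem_inv_smul_set_iff]
          · rw [hr.1.2]; exact s1 (Or.inl rfl)
          · rw [hr.2]; exact s1 (Or.inr rfl)))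
      have f4 := ncard_le_ncard (s := {x ∈ F \ {a, b, c} | r • x ∈ t • F \ {b, c}}) (t := (F ∩ (r⁻¹ * t) • F) \ {b, c})
        fun x hx => ⟨⟨hx.1.1, by rw [mul_smul, mem_inv_smul_set_iff]; exact hx.2.1⟩, fun e => hx.1.2 (Or.inr e)⟩
      rw [ncard_pair d1.2.2] at f3
      simp only at f1 ⊢
      omega
    have f1 := ncard_sdiff_add_ncard_of_subset s1
    have f2 := ncard_sdiff_add_ncard_of_subset s2
    have f3 := ncard_sdiff_add_ncard_of_subset (subset_univ {a, b, c})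
    rw [ncard_eq_three.2 ⟨a, b, c, d1.1, d1.2.1, d1.2.2, rfl⟩] at f2 f3
    rw [ncard_pair d1.2.2, ncard_smul_set] at f1
    rw [ncard_univ, ← h.half, ← hF] at f3
    rw [Finset.sum_add_distrib, ← Finset.mul_sum, Finset.sum_const, Finset.sum_const, Finset.card_univ,
      ← Nat.card_eq_fintype_card, smul_eq_mul, smul_eq_mul] at a2
    obtain ⟨m, hm⟩ : ∃ m, F.ncard = m + 5 := ⟨F.ncard - 5, by omega⟩
    rw [show (F \ {a, b, c}).ncard = m + 2 by omega, show (t • F \ {b, c}).ncard = m + 3 by omega,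
      show (univ \ {a, b, c} : Set Ω).ncard = 2 * m + 7 by omega] at a1
    rw [hm] at a2
    have : 0 < Nat.card L := Nat.card_pos
    nlinarith
  have dj : ∀ k ∈ K, ∀ k' ∈ K, ¬ (k * g) • F ⊆ (k' * g) • F → ∀ x ∈ (k * g) • F \ F, x ∉ (k' * g) • F :=
    fun k hk k' hk' h2 => by
    have kk : ∀ k ∈ K, ∀ x ∈ F, x ∈ (k * g) • F ↔ x ∈ g • F := fun k hk x hx => by
      rw [mul_smul, mem_smul_set_iff_inv_smul_mem, hx _ (inv_mem hk)]
    have f1 := hmin ((k * g)⁻¹ * (k' * g)) fun e => h2 (by rwa [mul_smul, subset_smul_set_iff, inv_inv] at e)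
    rw [← ncard_smul_set (k * g) (F \ ((k * g)⁻¹ * (k' * g)) • F), smul_set_sdiff, smul_smul, mul_inv_cancel_left,
      show F \ g • F = F \ (k * g) • F from Set.ext fun x => and_congr_right fun hx => (kk k hk x hx).not.symm,
      ← c0] at f1
    have := eq_of_subset_of_ncard_le (s := (k * g) • F \ (k' * g) • F) (t := (k * g) • F \ F)
      (fun x hx => ⟨hx.1, fun e => hx.2 ((kk k' hk' x e).2 ((kk k hk x e).1 hx.1))⟩) f1
    exact fun x hx => (this.ge hx).2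
  obtain ⟨k, hk, h2⟩ : ∃ k ∈ K, ¬ (k * g) • F ⊆ (1 * g) • F := by
    by_contra! e
    refine hg (eq_of_subset_of_ncard_le (h.pr.w2 (O := g • F) (fun k hk x hx => ?_) g
      fun x hx => mem_smul_set_iff_inv_smul_mem.1 hx) (by rw [ncard_smul_set])).ge
    simpa using e k hk (by rw [mul_smul]; exact smul_mem_smul_set hx)
  have ce : ∀ k ∈ K, ((k * g) • F \ F).ncard = (F \ g • F).ncard := fun k hk => by
    rw [c0]; congr 1
    exact Set.ext fun x => and_congr_right fun hx => by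
      rw [mul_smul, mem_smul_set_iff_inv_smul_mem, hx _ (inv_mem hk)]
  set Z := Fᶜ \ (((k * g) • F \ F) ∪ ((1 * g) • F \ F)) with hZ
  have f1 := ncard_sdiff_add_ncard_of_subset (s := ((k * g) • F \ F) ∪ ((1 * g) • F \ F)) (t := Fᶜ)
    (union_subset (fun _ e => e.2) fun _ e => e.2)
  rw [ncard_union_eq (disjoint_left.2 fun x hx e => dj k hk 1 (one_mem _) h2 x hx e.1), ce k hk, ce 1 (one_mem _),
    h.card_compl, ← hF, ← hZ] at f1
  have f2 : ∀ k' ∈ K, ∀ z ∈ Z, z ∉ (k' * g) • F := fun k' hk' z hz e => by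
    have := ncard_le_ncard (s := (k' * g) • F \ F) (t := Z) fun x hx => ⟨hx.2, fun e1 => e1.elim
      (fun e1 => dj k' hk' k hk (fun e2 => hz.2 (Or.inl ⟨e2 e, hz.1⟩)) x hx e1.1)
      fun e1 => dj k' hk' 1 (one_mem _) (fun e2 => hz.2 (Or.inr ⟨e2 e, hz.1⟩)) x hx e1.1⟩
    rw [ce k' hk'] at this
    omega
  have := h.five (O := Z) (fun r hr z hz => ⟨compl_inv hr hz.1, fun e => e.elim
    (fun e => f2 (r⁻¹ * k) (mul_mem (inv_mem hr) hk) z hz (by rw [mul_assoc, mul_smul, mem_inv_smul_set_iff]; exact e.1))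
    fun e => f2 (r⁻¹ * 1) (mul_mem (inv_mem hr) (one_mem _)) z hz (by
      rw [mul_assoc, mul_smul, mem_inv_smul_set_iff]; exact e.1)⟩) sdiff_subset ((ncard_pos (toFinite _)).1 (by omega))
  omega

end CfsgLib.Prae
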