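import Cfsg.Agent.Lib.Prae.Four

/-! Praeger's theorem: a nontrivial pronormal subgroup of a transitive group fixes fewer than half
of the points. -/

set_option autoImplicit false

namespace CfsgLib.Prae

open MulAction Set Pointwise

universe u

theorem PrIn.sub {G : Type u} [Group G] {K H : Subgroup G} (pr : PrIn K H) (hK : K ≤ H) :
    PrIn (K.subgroupOf H) ⊤ := fun g _ => by
  obtain ⟨w, h1, h2⟩ := pr g g.2
  refine ⟨⟨w, h1 H hK fun k hk => mul_mem (mul_mem g.2 (hK hk)) (inv_mem g.2)⟩, fun L h3 h4 => ?_, fun x => h2 x⟩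
  obtain ⟨v, hv, e⟩ := h1 (L.map H.subtype) (fun k hk => ⟨⟨k, hK hk⟩, h3 hk, rfl⟩)
    fun k hk => ⟨_, h4 ⟨k, hK hk⟩ hk, rfl⟩
  subst e
  exact hv

theorem main (n : ℕ) : ∀ (G : Type u) [Group G] [Finite G] (K : Subgroup G), PrIn K ⊤ → Ih K n := by
  induction n with
  | zero => exact fun _ _ _ _ _ _ _ _ _ _ _ h => absurd h (Nat.not_lt_zero _)
  | succ n IH =>
  intro G _ _ K pr Ω _ _ H x hK hn hF
  have ih := IH G K pr
  have c0 : 0 < (Or H x).ncard := (ncard_pos (toFinite _)).2 ⟨x, self_mem_Or x⟩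
  refine ⟨by_contra fun h1 => ?_, fun h1 => ?_⟩
  swap
  · have := three_le (fun k hk y hy => smul_mem_Or (hK hk) hy) hF h1
    obtain ⟨a, ha, h2⟩ := (ncard_pos (toFinite (Or H x ∩ Fx K Ω))).1 (by omega)
    rw [← Or_eq ha] at hn hF h1 ⊢
    exact two_of (ih.two pr hK h2 (by omega) hF h1.ge)
  obtain ⟨a, ha, h2⟩ := (ncard_pos (toFinite (Or H x ∩ Fx K Ω))).1 (by omega)
  rw [← Or_eq ha] at hn hF h1
  obtain ⟨y, hy, h3⟩ := not_subset.1 hF
  have e := ih.two pr hK h2 (by omega) hF (by omega) y ⟨hy, fun e => h3 (e ▸ h2)⟩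
  obtain ⟨s1, s2⟩ := sd_card (H := H) h2
  have h4 : ¬ Or (St H a) y ⊆ Fx K Ω := fun e => h3 (e (self_mem_Or y))
  obtain ⟨h5, h6⟩ := ih Ω (St H a) y (le_St hK h2) (by rw [e]; omega) h4
  have h7 := three_le (fun k hk y hy => smul_mem_Or (le_St hK h2 hk) hy) h4
  rw [e] at h5 h6 h7
  replace h6 := h6 (by omega)
  replace h7 := h7 (by omega)
  letI := act H (Or H a) fun g hg x hx => smul_mem_Or hg hx
  have c1 : (Fx (K.subgroupOf H) (Or H a)).ncard = (Or H a ∩ Fx K Ω).ncard := by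
    rw [← ncard_image_of_injective _ Subtype.val_injective]
    congr 1; ext z
    exact ⟨fun ⟨w, hw, e⟩ => e ▸ ⟨w.2, fun k hk => congrArg Subtype.val (hw ⟨k, hK hk⟩ hk)⟩,
      fun hz => ⟨⟨z, hz.1⟩, fun k hk => Subtype.ext (hz.2 k hk), rfl⟩⟩
  have pr' := PrIn.sub (fun g _ => pr g trivial) hK
  refine Top.elim (K := K.subgroupOf H) (Ω := Or H a) ⟨pr', fun Ω' _ _ L z h8 h9 => IH H _ pr' Ω' L z h8
    (h9.trans_le (by rw [Nat.card_coe_set_eq]; omega)), fun z w => ?_, fun x y z x' y' z' d d' => ?_,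
    by rw [c1, Nat.card_coe_set_eq]; omega, by omega⟩
  · obtain ⟨g, hg, e⟩ := Or_tr z.2 w.2
    exact ⟨⟨g, hg⟩, Subtype.ext e⟩
  obtain ⟨g, hg, e1⟩ := Or_tr x.2 (self_mem_Or a)
  obtain ⟨g', hg', e2⟩ := Or_tr x'.2 (self_mem_Or a)
  have key : ∀ g ∈ H, ∀ x y : Or H a, g • x.1 = a → x ≠ y → g • y.1 ∈ Or H a \ {a} := fun g hg x y e ne =>
    ⟨smul_mem_Or hg y.2, fun e1 => ne (Subtype.ext ((smul_left_cancel_iff g).1 (e.trans (Eq.symm e1))))⟩
  obtain ⟨t, ht, e3, e4⟩ := h6 _ (key g hg x y e1 d.1) _ (key g hg x z e1 d.2.1) _ (key g' hg' x' y' e2 d'.1) _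
    (key g' hg' x' z' e2 d'.2.1) (fun e => d.2.2 (Subtype.ext ((smul_left_cancel_iff g).1 e)))
    fun e => d'.2.2 (Subtype.ext ((smul_left_cancel_iff g').1 e))
  refine ⟨⟨g'⁻¹ * t * g, mul_mem (mul_mem (inv_mem hg') ht.1) hg⟩, Subtype.ext ?_, Subtype.ext ?_, Subtype.ext ?_⟩ <;>
    change (g'⁻¹ * t * g) • _ = _ <;> rw [mul_smul, mul_smul, inv_smul_eq_iff]
  · rw [e1, ht.2, e2]
  · exact e3
  · exact e4

end CfsgLib.Prae
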