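import Cfsg.Agent.Lib.Prae.Bas

/-! Fixed points of pronormal subgroups: the triply transitive case. -/

set_option autoImplicit false

namespace CfsgLib.Prae

open MulAction Set Pointwise

universe u

variable {G : Type u} [Group G] {Ω : Type u} [MulAction G Ω] {K H : Subgroup G} {n : ℕ}

/-- Three distinct points. -/
def D3 (x y z : Ω) : Prop := x ≠ y ∧ x ≠ z ∧ y ≠ z

/-- Four distinct points. -/
def D4 (x y z w : Ω) : Prop := D3 x y z ∧ x ≠ w ∧ y ≠ w ∧ z ≠ w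

/-- The situation of a minimal counterexample. -/
structure Top (K : Subgroup G) (Ω : Type u) [MulAction G Ω] : Prop where
  pr : PrIn K ⊤
  ih : Ih K (Nat.card Ω)
  tr : ∀ x y : Ω, ∃ g : G, g • x = y
  t3 : ∀ x y z x' y' z' : Ω, D3 x y z → D3 x' y' z' → ∃ g : G, g • x = x' ∧ g • y = y' ∧ g • z = z'
  half : 2 * (Fx K Ω).ncard = Nat.card Ω
  two : 2 ≤ (Fx K Ω).ncard

theorem D4.smul {x y z w : Ω} (h : D4 x y z w) (g : G) : D4 (g • x) (g • y) (g • z) (g • w) := by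
  simpa only [D4, D3, ne_eq, smul_left_cancel_iff] using h

theorem compl_inv {k : G} (hk : k ∈ K) {x : Ω} (hx : x ∈ (Fx K Ω)ᶜ) : k • x ∈ (Fx K Ω)ᶜ := fun e => hx <| by
  have := e _ (inv_mem hk)
  rw [inv_smul_smul] at this
  rwa [this]

theorem Or_card [Finite G] (x : Ω) : (Or H x).ncard * Nat.card (St H x) = Nat.card H := by
  rw [← (stabilizer H x).index_mul_card, index_stabilizer,
    ← Nat.card_congr (Subgroup.subgroupOfEquivOfLe (fun g hg => hg.1 : St H x ≤ H)).toEquiv]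
  congr 2
  · ext y; exact ⟨fun ⟨h, hh, e⟩ => ⟨⟨h, hh⟩, e⟩, fun ⟨h, e⟩ => ⟨h, h.2, e⟩⟩
  · congr! 1; ext g; exact ⟨fun e => e.2, fun e => ⟨g.2, e⟩⟩

variable [Finite G] [Finite Ω]

theorem Top.card_compl (h : Top K Ω) : (Fx K Ω)ᶜ.ncard = (Fx K Ω).ncard := by
  have := ncard_add_ncard_compl (Fx K Ω)
  have := h.half
  omega

theorem Top.not_all (h : Top K Ω) {O : Set Ω} (hO : ∀ k ∈ K, ∀ x ∈ O, k • x ∈ O) (h1 : O ⊆ (Fx K Ω)ᶜ)
    (h2 : O.Nonempty) (g : G) : ¬ ∀ x ∈ O, g • x ∈ Fx K Ω := fun e => by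
  obtain ⟨x, hx⟩ := h2
  exact h1 hx (h.pr.w2 hO g⁻¹ (by simpa using e) hx)

theorem Top.ne (h : Top K Ω) : (Fx K Ω)ᶜ.Nonempty :=
  (ncard_pos (toFinite _)).1 (by have := h.two; rw [h.card_compl]; omega)

theorem Top.four (h : Top K Ω) : 4 ≤ (Fx K Ω).ncard := by
  by_contra h1
  have h2 := h.two
  have h3 := h.card_compl
  have h4 := h.not_all (fun k hk x hx => compl_inv hk hx) subset_rfl h.ne
  obtain e | e : (Fx K Ω).ncard = 2 ∨ (Fx K Ω).ncard = 3 := by omega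
  · obtain ⟨a, b, n1, e1⟩ := ncard_eq_two.1 e
    obtain ⟨s, t, n2, e2⟩ := ncard_eq_two.1 (h3.trans e)
    have hs : s ∈ (Fx K Ω)ᶜ := by simp [e2]
    have ht : t ∈ (Fx K Ω)ᶜ := by simp [e2]
    have ha : a ∈ Fx K Ω := by simp [e1]
    have hb : b ∈ Fx K Ω := by simp [e1]
    obtain ⟨g, g1, g2, -⟩ := h.t3 s t a a b s ⟨n2, fun e => hs (e ▸ ha), fun e => ht (e ▸ ha)⟩
      ⟨n1, fun e => hs (e ▸ ha), fun e => hs (e ▸ hb)⟩
    exact h4 g (by rw [e2]; rintro _ (rfl | rfl) <;> simp [*])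
  · obtain ⟨a, b, c, n1, n2, n3, e1⟩ := ncard_eq_three.1 e
    obtain ⟨s, t, r, n4, n5, n6, e2⟩ := ncard_eq_three.1 (h3.trans e)
    obtain ⟨g, g1, g2, g3⟩ := h.t3 s t r a b c ⟨n4, n5, n6⟩ ⟨n1, n2, n3⟩
    exact h4 g (by rw [e2]; rintro _ (rfl | rfl | rfl) <;> simp [*])

/-- The case of a Steiner quadruple system. -/
theorem Top.sqs (h : Top K Ω) {a b c e : Ω} (hd : D4 a b c e)
    (h1 : ∀ g : G, g • a = a → g • b = b → g • c = c → g • e = e)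
    (h2 : ∀ y, D4 a b c y → (∀ g : G, g • a = a → g • b = b → g • c = c → g • y = y) → y = e) : False := by
  let Q : Ω → Ω → Ω → Ω → Prop := fun x y z w => D4 x y z w ∧ ∀ g : G, g • x = x → g • y = y → g • z = z → g • w = w
  have inv : ∀ (g : G) {x y z w}, Q x y z w → Q (g • x) (g • y) (g • z) (g • w) := fun g x y z w q =>
    ⟨q.1.smul g, fun t e1 e2 e3 => by
      have := q.2 (g⁻¹ * t * g) (by rw [mul_smul, mul_smul, e1, inv_smul_smul])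
        (by rw [mul_smul, mul_smul, e2, inv_smul_smul]) (by rw [mul_smul, mul_smul, e3, inv_smul_smul])
      rwa [mul_smul, mul_smul, inv_smul_eq_iff] at this⟩
  have ex : ∀ x y z, ∃ w, D3 x y z → Q x y z w := fun x y z => by
    by_cases d : D3 x y z
    · obtain ⟨g, rfl, rfl, rfl⟩ := h.t3 a b c x y z hd.1 d
      exact ⟨g • e, fun _ => inv g ⟨hd, h1⟩⟩
    · exact ⟨a, fun e => (d e).elim⟩
  choose φ hφ using ex
  have uq : ∀ {x y z w w'}, Q x y z w → Q x y z w' → w = w' := fun {x y z w w'} q q' => by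
    obtain ⟨g, e1, e2, e3⟩ := h.t3 x y z a b c q.1.1 hd.1
    have r := inv g q
    have r' := inv g q'
    rw [e1, e2, e3] at r r'
    exact (smul_left_cancel_iff g).1 ((h2 _ r.1 r.2).trans (h2 _ r'.1 r'.2).symm)
  have s23 : ∀ {x y z w}, Q x y z w → Q x z y w := fun ⟨⟨⟨d1, d2, d3⟩, d4, d5, d6⟩, q⟩ =>
    ⟨⟨⟨d2, d1, d3.symm⟩, d4, d6, d5⟩, fun g e1 e2 e3 => q g e1 e3 e2⟩
  have s34 : ∀ {x y z w}, Q x y z w → Q x y w z := fun {x y z w} ⟨⟨⟨d1, d2, d3⟩, d4, d5, d6⟩, q⟩ => by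
    obtain ⟨g, e1, e2, e3⟩ := h.t3 x y w x y z ⟨d1, d4, d5⟩ ⟨d1, d2, d3⟩
    have := eq_of_subset_of_ncard_le (s := {t : G | t • x = x ∧ t • y = y ∧ t • z = z})
      (t := {t : G | t • x = x ∧ t • y = y ∧ t • w = w}) (fun t ht => ⟨ht.1, ht.2.1, q t ht.1 ht.2.1 ht.2.2⟩)
      (ncard_le_ncard_of_injOn (fun t => g * t * g⁻¹) (fun t ht => by
        simp only [mem_ofPred_eq, mul_smul]
        refine ⟨?_, ?_, ?_⟩ <;> rw [← smul_left_cancel_iff g⁻¹, inv_smul_smul]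
        · rw [← e1, inv_smul_smul, ht.1]
        · rw [← e2, inv_smul_smul, ht.2.1]
        · rw [← e3, inv_smul_smul, ht.2.2]) fun _ _ _ _ e => by simpa using e)
    exact ⟨⟨⟨d1, d4, d5⟩, d2, d3, d6.symm⟩, fun t e1 e2 e3 => (this.ge ⟨e1, e2, e3⟩).2.2⟩
  have cl : ∀ {x y z w}, Q x y z w → x ∈ Fx K Ω → y ∈ Fx K Ω → z ∈ Fx K Ω → w ∈ Fx K Ω :=
    fun q e1 e2 e3 k hk => q.2 k (e1 k hk) (e2 k hk) (e3 k hk)
  have inj : ∀ {x y} {s : Set Ω}, (∀ z ∈ s, D3 x y z) → InjOn (φ x y) s := fun hs z hz w hw e =>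
    uq (s34 (hφ _ _ _ (hs z hz))) (e ▸ s34 (hφ _ _ _ (hs w hw)))
  have par : ∀ {x y z w}, Q x y z w → x ∈ Fx K Ω → y ∉ Fx K Ω → z ∉ Fx K Ω → w ∈ Fx K Ω := fun {x y z w} q e1 e2 e3 => by
    have d : ∀ v ∈ Fx K Ω \ {x}, D3 x y v := fun v hv => ⟨q.1.1.1, fun e => hv.2 e.symm, fun e => e2 (e ▸ hv.1)⟩
    have := eq_of_subset_of_ncard_le (s := φ x y '' (Fx K Ω \ {x})) (t := (Fx K Ω)ᶜ \ {y}) (by
      rintro _ ⟨v, hv, rfl⟩
      have r := hφ _ _ _ (d v hv)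
      exact ⟨fun e => e2 (cl (s34 (s23 r)) e1 hv.1 e), fun e => r.1.2.2.1 (Eq.symm e)⟩) (by
      have := ncard_sdiff_singleton_add_one e1
      have := ncard_sdiff_singleton_add_one (s := (Fx K Ω)ᶜ) e2
      rw [(inj d).ncard_image, h.card_compl] at *
      omega)
    obtain ⟨v, hv, e⟩ := this.ge ⟨e3, fun e => q.1.1.2.2 (Eq.symm e)⟩
    exact uq (s34 (e ▸ hφ _ _ _ (d v hv))) q ▸ hv.1
  have low : ∀ g : G, (Fx K Ω).ncard ≤ 2 * {x ∈ Fx K Ω | g • x ∈ Fx K Ω}.ncard := fun g => by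
    by_cases h3 : ∀ x ∈ Fx K Ω, g • x ∈ Fx K Ω
    · rw [show {x ∈ Fx K Ω | g • x ∈ Fx K Ω} = Fx K Ω from sep_eq_self_iff_mem_true.2 h3]
      omega
    push Not at h3
    obtain ⟨y, hy, h3⟩ := h3
    obtain ⟨x, hx, h4⟩ : ∃ x ∈ Fx K Ω, g • x ∈ Fx K Ω := by
      by_contra! h4
      refine h.not_all (fun k hk x hx => compl_inv hk hx) subset_rfl h.ne g⁻¹ fun s hs => ?_
      have := eq_of_subset_of_ncard_le (s := g • Fx K Ω) (t := (Fx K Ω)ᶜ) (by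
        rintro _ ⟨v, hv, rfl⟩
        exact h4 v hv) (by rw [ncard_smul_set, h.card_compl])
      exact mem_smul_set_iff_inv_smul_mem.1 (this.ge hs)
    have d : ∀ v ∈ (Fx K Ω \ {x ∈ Fx K Ω | g • x ∈ Fx K Ω}) \ {y}, D3 x y v := fun v hv =>
      ⟨fun e => h3 (e ▸ h4), fun e => hv.1.2 (e ▸ ⟨hx, h4⟩), fun e => hv.2 e.symm⟩
    have c1 := ncard_le_ncard_of_injOn (t := {x ∈ Fx K Ω | g • x ∈ Fx K Ω} \ {x}) (φ x y) (fun v hv =>
      have r := hφ _ _ _ (d v hv)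
      ⟨⟨cl r hx hy hv.1.1, par (inv g r) h4 h3 fun e => hv.1.2 ⟨hv.1.1, e⟩⟩, fun e => r.1.2.1 (Eq.symm e)⟩) (inj d)
    have c2 := ncard_sdiff_singleton_add_one (s := Fx K Ω \ {x ∈ Fx K Ω | g • x ∈ Fx K Ω}) ⟨hy, fun e => h3 e.2⟩
    have c3 := ncard_sdiff_singleton_add_one (s := {x ∈ Fx K Ω | g • x ∈ Fx K Ω}) ⟨hx, h4⟩
    have c4 := (split (sep_subset _ _ : {x ∈ Fx K Ω | g • x ∈ Fx K Ω} ⊆ _) univ).1
    omega
  haveI := Fintype.ofFinite (⊤ : Subgroup G)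
  have h3 := avg (H := (⊤ : Subgroup G)) (O := (univ : Set Ω)) (P := Fx K Ω) (Q := Fx K Ω) (fun x _ y _ => (h.tr x y).imp fun g e => ⟨trivial, e⟩) (fun _ _ _ _ => trivial) (subset_univ _) (subset_univ _)
  have h4 := Finset.sum_lt_sum (s := Finset.univ) (fun (g : (⊤ : Subgroup G)) _ => low g) ⟨1, Finset.mem_univ _, by
    have := h.two
    simp only [OneMemClass.coe_one, one_smul, sep_mem_eq, inter_self]
    omega⟩
  rw [← Finset.mul_sum, Finset.sum_const, Finset.card_univ, smul_eq_mul, ← Nat.card_eq_fintype_card] at h4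
  rw [ncard_univ, ← h.half] at h3
  have := h.two
  nlinarith

theorem Top.mem_Or (h : Top K Ω) {a b c : Ω} (d : D3 a b c) (y : Ω) :
    y ∈ Or (St (St (⊤ : Subgroup G) a) b) c ↔ a ≠ y ∧ b ≠ y := by
  refine ⟨fun ⟨g, hg, e⟩ => ⟨fun e1 => d.2.1 ?_, fun e1 => d.2.2 ?_⟩, fun hy => ?_⟩
  · rw [← smul_left_cancel_iff g, hg.1.2, e, e1]
  · rw [← smul_left_cancel_iff g, hg.2, e, e1]
  · obtain ⟨g, e1, e2, e3⟩ := h.t3 a b c a b y d ⟨d.1, hy⟩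
    exact ⟨g, ⟨⟨trivial, e1⟩, e2⟩, e3⟩

theorem Top.card2 (h : Top K Ω) {a b c : Ω} (d : D3 a b c) (ha : a ∈ Fx K Ω) (hb : b ∈ Fx K Ω) :
    (Or (St (St (⊤ : Subgroup G) a) b) c).ncard + 2 = 2 * (Fx K Ω).ncard ∧
      (Or (St (St (⊤ : Subgroup G) a) b) c ∩ Fx K Ω).ncard + 2 = (Fx K Ω).ncard := by
  have e : Or (St (St (⊤ : Subgroup G) a) b) c = univ \ {a, b} := by
    ext y; simp [h.mem_Or d, eq_comm]
  obtain ⟨h1, h2⟩ := split (subset_univ {a, b}) (Fx K Ω)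
  rw [univ_inter, inter_eq_left.2 (insert_subset ha (singleton_subset_iff.2 hb))] at h2
  rw [ncard_pair d.1] at h1 h2
  rw [e, h.half, ← ncard_univ]
  omega

/-- The order of the stabiliser of four points. -/
noncomputable def c4 (G : Type u) [Group G] [MulAction G Ω] (x y z w : Ω) : ℕ :=
  {g : G | g • x = x ∧ g • y = y ∧ g • z = z ∧ g • w = w}.ncard

omit [Finite Ω] in
theorem c4_smul (g : G) (x y z w : Ω) : c4 G (g • x) (g • y) (g • z) (g • w) = c4 G x y z w := by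
  have key : ∀ (g : G) (x y z w : Ω), c4 G x y z w ≤ c4 G (g • x) (g • y) (g • z) (g • w) := fun g x y z w =>
    ncard_le_ncard_of_injOn (fun t => g * t * g⁻¹) (fun t ht => by
      simp only [mem_ofPred_eq, mul_smul, inv_smul_smul, ht.1, ht.2.1, ht.2.2.1, ht.2.2.2, and_self])
      fun _ _ _ _ e => by simpa using e
  exact le_antisymm (by simpa using key g⁻¹ (g • x) (g • y) (g • z) (g • w)) (key g x y z w)

/-- The case of two suborbits of defects one and two. -/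
theorem Top.srg (h : Top K Ω) {a b c y z : Ω} (d : D3 a b c) (ha : a ∈ Fx K Ω) (hb : b ∈ Fx K Ω) {p q : ℕ}
    {L : Subgroup G} (hL : L = St (St (St ⊤ a) b) c) (p1 : (Or L y).ncard = 2 * p + 1) (p3 : 1 ≤ p)
    (p2 : (Or L y ∩ Fx K Ω).ncard = p) (q1 : (Or L z).ncard = 2 * q + 2) (pq : p + q + 3 = (Fx K Ω).ncard)
    (un : ∀ w, D4 a b c w ↔ w ∈ Or L y ∨ w ∈ Or L z) (hc : c ∈ Fx K Ω)
    (col : ∀ x ∈ Or L y, ∀ x' ∈ Or L y, x ≠ x' → ∃ g ∈ St (St (⊤ : Subgroup G) a) b, g • c = x ∧ g • z = x') :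
    False := by
  let Q : Ω → Ω → Ω → Ω → Prop := fun x1 x2 x3 x4 => D4 x1 x2 x3 x4 ∧ c4 G x1 x2 x3 x4 = c4 G a b c y
  have inv : ∀ (g : G) {x y z w}, Q (g • x) (g • y) (g • z) (g • w) ↔ Q x y z w := fun g x y z w =>
    and_congr ⟨fun e => by simpa using e.smul g⁻¹, fun e => e.smul g⟩ (by rw [c4_smul])
  have s23 : ∀ {x y z w}, Q x y z w → Q x z y w := fun ⟨⟨⟨d1, d2, d3⟩, d4, d5, d6⟩, q⟩ =>
    ⟨⟨⟨d2, d1, d3.symm⟩, d4, d6, d5⟩, Eq.trans (by unfold c4; congr 1; ext; simp only [mem_ofPred_eq]; tauto) q⟩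
  have s34 : ∀ {x y z w}, Q x y z w → Q x y w z := fun ⟨⟨⟨d1, d2, d3⟩, d4, d5, d6⟩, q⟩ =>
    ⟨⟨⟨d1, d4, d5⟩, d2, d3, d6.symm⟩, Eq.trans (by unfold c4; congr 1; ext; simp only [mem_ofPred_eq]; tauto) q⟩
  have os : ∀ w, (Or L w).ncard * c4 G a b c w = Nat.card L := fun w => by
    rw [← Or_card w, c4, ← Nat.card_coe_set_eq, hL]
    congr 1
    exact Nat.card_congr (Equiv.subtypeEquivRight fun g =>
      ⟨fun e => ⟨⟨⟨⟨trivial, e.1⟩, e.2.1⟩, e.2.2.1⟩, e.2.2.2⟩, fun e => ⟨e.1.1.1.2, e.1.1.2, e.1.2, e.2⟩⟩)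
  have N0 : ∀ w, Q a b c w ↔ w ∈ Or L y := fun w => by
    have e1 := os w
    have e2 := os y
    have e3 : 0 < Nat.card L := Nat.card_pos
    refine ⟨fun e => ((un w).1 e.1).resolve_right fun e4 => ?_, fun e => ⟨(un w).2 (Or.inl e), ?_⟩⟩
    · rw [Or_eq e4, e.2, ← e2] at e1
      have := Nat.eq_of_mul_eq_mul_right (Nat.pos_of_ne_zero fun e => by simp [e] at e2; omega) e1
      omega
    · rw [Or_eq e, ← e2] at e1
      exact Nat.eq_of_mul_eq_mul_left (by omega) e1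
  have nz : ¬ Q a b c z := fun e => by rw [Or_eq ((N0 z).1 e)] at q1; omega
  have Nc : ∀ {x y z}, D3 x y z → {w | Q x y z w}.ncard = 2 * p + 1 := fun {x1 x2 x3} d1 => by
    obtain ⟨g, rfl, rfl, rfl⟩ := h.t3 a b c _ _ _ d d1
    rw [← p1, ← ncard_smul_set g (Or L y)]
    congr 1; ext w
    rw [mem_smul_set_iff_inv_smul_mem, ← N0, ← inv g, smul_inv_smul, mem_ofPred_eq]
  have tf : ∀ {x y z w w'}, Q x y z w → Q x y z w' → ¬ Q x y w w' := fun {x1 x2 x3 w w'} q1 q2 q3 => by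
    obtain ⟨g, e1, e2, e3⟩ := h.t3 _ _ _ a b c q1.1.1 d
    rw [← inv g] at q1 q2 q3
    rw [e1, e2] at q1 q2 q3
    rw [e3, N0] at q1 q2
    obtain ⟨t, ht, e4, e5⟩ := col _ q1 _ q2 q3.1.2.2.2
    rw [← e4, ← e5, ← ht.1.2, ← ht.2, inv] at q3
    exact nz q3
  have nq : ∀ {x1 x2 x3 x4}, D4 x1 x2 x3 x4 → ¬ Q x1 x2 x3 x4 →
      ∃ g : G, g • a = x1 ∧ g • b = x2 ∧ g • c = x3 ∧ g • z = x4 := fun {x1 x2 x3 x4} d1 q1 => by
    obtain ⟨g, rfl, rfl, rfl⟩ := h.t3 a b c _ _ _ d d1.1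
    rw [← smul_inv_smul g x4] at d1 q1
    obtain ⟨t, ht, e⟩ := ((un _).1 (by simpa using d1.smul g⁻¹)).resolve_left fun e => q1 ((inv g).2 ((N0 _).2 e))
    rw [hL] at ht
    exact ⟨g * t, by rw [mul_smul, ht.1.1.2], by rw [mul_smul, ht.1.2], by rw [mul_smul, ht.2],
      by rw [mul_smul, e, smul_inv_smul]⟩
  have cn : ∀ {x y z w}, D4 x y z w → ({v | Q x y z v} ∩ {v | Q x y w v}).ncard ≤ p := fun {x1 x2 x3 x4} d1 => by
    by_cases q1 : Q x1 x2 x3 x4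
    · rw [eq_empty_of_forall_notMem (s := {v | Q x1 x2 x3 v} ∩ {v | Q x1 x2 x4 v}) fun v hv => tf q1 hv.1 hv.2, ncard_empty]
      omega
    obtain ⟨g, e1, e2, e3, e4⟩ := nq d1 q1
    obtain ⟨⟨d2, d3, d4⟩, d5, d6, d7⟩ := d1
    obtain ⟨t, e5, e6, e7, e8⟩ := nq ⟨⟨d3, d2, d4.symm⟩, d5, d7, d6⟩ fun e => q1 (s23 e)
    have c1 := ncard_le_smul (t * g⁻¹) (s := {v | Q x1 x2 x3 v} ∩ {v | Q x1 x2 x4 v})
      (t := {v | Q x1 x3 x2 v} ∩ {v | Q x1 x3 x4 v}) fun v hv => by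
        have f1 := (inv (t * g⁻¹)).2 hv.1
        have f2 := (inv (t * g⁻¹)).2 hv.2
        have f3 : ∀ {u u' : Ω}, g • u = u' → (t * g⁻¹) • u' = t • u := fun e => by rw [← e, mul_smul, inv_smul_smul]
        rw [f3 e1, f3 e2, e5, e6] at f1 f2
        rw [f3 e3, e7] at f1
        rw [f3 e4, e8] at f2
        exact ⟨f1, f2⟩
    have c2 := ncard_union_eq (s := {v | Q x1 x2 x3 v} ∩ {v | Q x1 x2 x4 v})
      (t := {v | Q x1 x3 x2 v} ∩ {v | Q x1 x3 x4 v}) (disjoint_left.2 fun v hv hv' =>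
        tf (s23 (s34 hv.1)) (s23 (s34 hv.2)) (s23 (s34 hv'.2)))
    have c3 := ncard_le_ncard (t := {v | Q x1 x2 x3 v}) (union_subset (s := {v | Q x1 x2 x3 v} ∩ {v | Q x1 x2 x4 v})
      (t := {v | Q x1 x3 x2 v} ∩ {v | Q x1 x3 x4 v}) inter_subset_left fun v hv => s23 hv.1)
    rw [Nc ⟨d2, d3, d4⟩] at c3
    omega
  have cA := dc_le (s := Or (St (St ⊤ a) b) c ∩ Fx K Ω) (t := (Fx K Ω)ᶜ) (Q a b) (a := p + 1) (b := p)
    (fun x hx => by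
      obtain ⟨g, hg, rfl⟩ := hx.1
      obtain ⟨v, hv, e1, e2⟩ := h.pr.w1 Ω (le_St (le_St le_top ha) hb) hg
      have := (split (inter_subset_left : Or L y ∩ Fx K Ω ⊆ _) univ).1
      refine le_of_eq_of_le (by omega) (ncard_le_smul v (s := Or L y \ (Or L y ∩ Fx K Ω)) fun w hw =>
        ⟨fun e => hw.2 ⟨hw.1, (e1 w).1 e⟩, ?_⟩)
      rw [← e2 c hc hx.2, ← hv.1.2, ← hv.2, inv, N0]
      exact hw.1) fun v hv => by
      obtain ⟨k, hk, e⟩ : ∃ k ∈ K, k • v ≠ v := by simpa [Fx] using hv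
      have hv' := compl_inv hk hv
      refine (ncard_le_ncard (t := {x | Q a b v x} ∩ {x | Q a b (k • v) x}) (fun x hx => ⟨s34 hx.2, s34 ?_⟩)).trans
        (cn ⟨⟨d.1, fun e => hv (e ▸ ha), fun e => hv (e ▸ hb)⟩, fun e => hv' (e ▸ ha), fun e => hv' (e ▸ hb), e.symm⟩)
      rw [← ha k hk, ← hb k hk, ← hx.1.2 k hk, inv]
      exact hx.2
  obtain ⟨y1, m1, y2, m2, ne⟩ := (one_lt_ncard (toFinite (Or L y))).1 (by omega)
  rw [← N0] at m1 m2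
  have c1 := ncard_union_add_ncard_inter {v | Q a b y1 v} {v | Q a b y2 v}
  have c2 := cn ⟨(s34 m1).1.1, m2.1.2.1, m2.1.2.2.1, ne⟩
  have c3 := ncard_le_ncard (t := insert c (Or L z)) (union_subset (s := {v | Q a b y1 v}) (t := {v | Q a b y2 v})
    (fun v hv => by_contra fun e => tf m1 ((N0 v).2 (((un v).1 ⟨d, hv.1.2.1, hv.1.2.2.1, fun e1 =>
      e (Or.inl e1.symm)⟩).resolve_right fun e1 => e (Or.inr e1))) hv)
    fun v hv => by_contra fun e => tf m2 ((N0 v).2 (((un v).1 ⟨d, hv.1.2.1, hv.1.2.2.1, fun e1 =>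
      e (Or.inl e1.symm)⟩).resolve_right fun e1 => e (Or.inr e1))) hv)
  have c4 := ncard_insert_le c (Or L z)
  have c5 := (h.card2 d ha hb).2
  rw [Nc (s34 m1).1.1, Nc (s34 m2).1.1] at c1
  rw [h.card_compl, ← pq, show (Or (St (St ⊤ a) b) c ∩ Fx K Ω).ncard = p + q + 1 by omega] at cA
  nlinarith

/-- `H` is quadruply transitive on `O`. -/
def T4 (H : Subgroup G) (O : Set Ω) : Prop := ∀ x ∈ O, ∀ y ∈ O, ∀ z ∈ O, ∀ w ∈ O, ∀ x' ∈ O, ∀ y' ∈ O, ∀ z' ∈ O,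
  ∀ w' ∈ O, D4 x y z w → D4 x' y' z' w' → ∃ g ∈ H, g • x = x' ∧ g • y = y' ∧ g • z = z' ∧ g • w = w'

theorem Top.t4 (h : Top K Ω) : T4 (⊤ : Subgroup G) (univ : Set Ω) := by
  obtain ⟨a, b, c, ha, hb, hc, d⟩ := (two_lt_ncard_iff (toFinite (Fx K Ω))).1 (by have := h.four; omega)
  obtain ⟨c1, c2⟩ := h.card2 d ha hb
  have hK : K ≤ St (St ⊤ a) b := le_St (le_St le_top ha) hb
  have mY : ∀ y : Ω, y ∈ Or (St (St (⊤ : Subgroup G) a) b) c \ {c} ↔ D4 a b c y := fun y => by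
    rw [mem_sdiff, Top.mem_Or h d y, mem_singleton_iff]
    exact ⟨fun e => ⟨d, e.1.1, e.1.2, Ne.symm e.2⟩, fun e => ⟨⟨e.2.1, e.2.2.1⟩, e.2.2.2.symm⟩⟩
  have hn := h.half
  rcases h.ih.red h.pr hK hc (by omega) (fun e => by
    rw [inter_eq_left.2 e] at c2
    have := h.four
    omega) with h1 | ⟨h1, h2⟩
  swap
  · obtain ⟨e, he⟩ := ncard_eq_one.1 (show ({y ∈ Or (St (St (⊤ : Subgroup G) a) b) c | Or (St (St (St (⊤ : Subgroup G) a) b) c) y ⊆ Fx K Ω} \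
      {c}).ncard = 1 by
      have := ncard_sdiff_singleton_add_one (s := {y ∈ Or (St (St (⊤ : Subgroup G) a) b) c | Or (St (St (St (⊤ : Subgroup G) a) b) c) y ⊆ Fx K Ω})
        ⟨self_mem_Or c, by rintro _ ⟨g, hg, rfl⟩; rwa [hg.2]⟩
      omega)
    have h3 := he.ge rfl
    refine (h.sqs ((mY e).1 ⟨h3.1.1, h3.2⟩) (fun g e1 e2 e3 => ?_) fun y d1 h4 => he.le ⟨⟨((mY y).2 d1).1, ?_⟩,
      ((mY y).2 d1).2⟩).elim
    · have hg : g ∈ St (St (St ⊤ a) b) c := ⟨⟨⟨trivial, e1⟩, e2⟩, e3⟩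
      have := sd_inv c g hg e ⟨h3.1.1, h3.2⟩
      exact he.le ⟨⟨this.1, by rw [Or_eq ⟨g, hg, rfl⟩]; exact h3.1.2⟩, this.2⟩
    · rintro _ ⟨g, hg, rfl⟩ k hk
      rw [h4 g hg.1.1.2 hg.1.2 hg.2, h4 k (ha k hk) (hb k hk) (hc k hk)]
  by_cases h2 : ∀ y ∈ Or (St (St (⊤ : Subgroup G) a) b) c \ {c},
    Or (St (St (⊤ : Subgroup G) a) b) c \ {c} ⊆ Or (St (St (St (⊤ : Subgroup G) a) b) c) y
  · intro x _ y _ z _ w _ x' _ y' _ z' _ w' _ d1 d2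
    obtain ⟨g, e1, e2, e3⟩ := h.t3 _ _ _ a b c d1.1 d
    obtain ⟨g', e4, e5, e6⟩ := h.t3 _ _ _ a b c d2.1 d
    obtain ⟨t, ht, e⟩ := h2 (g • w) ((mY _).2 (e1 ▸ e2 ▸ e3 ▸ d1.smul g)) ((mY _).2 (e4 ▸ e5 ▸ e6 ▸ d2.smul g'))
    refine ⟨g'⁻¹ * t * g, trivial, ?_, ?_, ?_, ?_⟩ <;> rw [mul_smul, mul_smul, inv_smul_eq_iff]
    · rw [e1, e4, ht.1.1.2]
    · rw [e2, e5, ht.1.2]
    · rw [e3, e6, ht.2]
    · exact e
  exfalso
  set Y := Or (St (St (⊤ : Subgroup G) a) b) c \ {c} with hY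
  set L := St (St (St (⊤ : Subgroup G) a) b) c with hL
  replace h2 : ∀ y ∈ Y, ¬ Y ⊆ Or L y := fun y hy e => h2 fun z hz => by rwa [Or_eq (e hz)]
  obtain ⟨s1, s2⟩ := sd_card (H := St (St (⊤ : Subgroup G) a) b) hc
  rw [← hY] at s1 s2
  have f4 := h.four
  have KL : K ≤ L := le_St hK hc
  have off := fun y hy => h.ih.off KL (sd_inv c) (by rw [← hY]; omega) h1 hy (h2 y hy)
  rw [← hY] at off
  have off2 : ∀ z ∈ Y, ∀ y ∈ Y \ Or L z, (Y \ Or L z).ncard ≤ 2 * ((Y \ Or L z) ∩ Fx K Ω).ncard + 1 →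
      Or L y = Y \ Or L z := fun z hz y hy e => (Or_sub (diff_inv (sd_inv c) z) hy).antisymm (by_contra fun e1 => by
    have := off z hz
    have := h.ih.off (Y := Y \ Or L z) KL (diff_inv (sd_inv c) z) (by omega) (fun w hw => h1 w hw.1) hy e1
    omega)
  obtain ⟨y, hy, p1⟩ : ∃ y ∈ Y, 2 * (Or L y ∩ Fx K Ω).ncard + 1 = (Or L y).ncard := by
    obtain ⟨z, hz⟩ : Y.Nonempty := (ncard_pos (toFinite _)).1 (by omega)
    by_contra! e
    have e1 := e z hz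
    have e2 := off z hz
    obtain ⟨y, hy⟩ := nonempty_of_not_subset (h2 z hz)
    have e3 := e y hy.1
    rw [off2 z hz y hy (by omega)] at e3
    omega
  have p3 := three_le (fun k hk x hx => smul_mem_Or (KL hk) hx) (h1 y hy) p1
  obtain ⟨z, hz, ⟨z', hz', ne, t1⟩, t2, col⟩ := tri hy.1 ((h.ih Ω _ y KL
    ((ncard_le_ncard (Or_sub (sd_inv c) hy)).trans_lt (by rw [← hY]; omega)) (h1 y hy)).2 p1) p3
  have q1 : 2 * (Or L z ∩ Fx K Ω).ncard + 1 ≠ (Or L z).ncard :=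
    fun e => h2 z hz (h.ih.clique hK hc (by omega) hz hz' ne t1 t2 (h1 z hz) e)
  have q2 := off z hz
  have q3 : Or L y = Y \ Or L z := off2 z hz y ⟨hy, fun e => q1 (by rwa [← Or_eq e])⟩ (by omega)
  rw [← q3] at q2
  exact h.srg d ha hb hL p1.symm (by omega) rfl (q := (Or L z ∩ Fx K Ω).ncard) (z := z) (by omega) (by omega)
    (fun w => by
      rw [← mY, q3]
      exact ⟨fun e => (em (w ∈ Or L z)).symm.imp_left fun e1 => ⟨e, e1⟩,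
        fun e => e.elim And.left fun e => Or_sub (sd_inv c) hz e⟩) hc col

end CfsgLib.Prae
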